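import Cfsg.Agent.Lib.Helper33.H1c

set_option autoImplicit false
set_option linter.unusedSectionVars false
set_option maxRecDepth 100000
open scoped MatrixGroups commutatorElement
open Cfsg

namespace Cfsg.Agent.Lib.Helper33.H1.M6

abbrev I := ((Fin 2 ⊕ Fin 2) ⊕ Fin 2)
abbrev Qf : (I → ZMod 2) → ZMod 2 := Cfsg.quadFormMinus 2 (ZMod 2) 1 1
def ix : I → ℕ := Sum.elim (Sum.elim (fun i => i.val) (fun i => 2 + i.val)) (fun i => 4 + i.val)
def qB (n : ℕ) : Bool := Nat.testBit 10619368485066599584 n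

theorem setup : Setup Qf ix 6 qB where
  card := by simp
  inj0 := by decide +kernel
  hQ := by decide +kernel
  ixinj := by decide

def mA : ℕ := 18125459547
def mAi : ℕ := 58520566082
def mB : ℕ := 26778656204
def mBi : ℕ := 61876510189
def mR : ℕ := 51810156673
def mRi : ℕ := 51810156673
def mAB : ℕ := 51378118366
def mABA : ℕ := 34076160827
def m1 : ℕ := 14379897389
def mCR : ℕ := 43895263323
def mCRC : ℕ := 26443009665
def m2 : ℕ := 52212813441
def mW : ℕ := 63061667041

theorem exmA : ∃ g : ↥(isometryGroup (ZMod 2) Qf), Rep ix 6 g mA :=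
  exists_rep setup mA mAi (by decide +kernel) (by decide +kernel) (by decide +kernel)

theorem exmB : ∃ g : ↥(isometryGroup (ZMod 2) Qf), Rep ix 6 g mB :=
  exists_rep setup mB mBi (by decide +kernel) (by decide +kernel) (by decide +kernel)

theorem exmR : ∃ g : ↥(isometryGroup (ZMod 2) Qf), Rep ix 6 g mR :=
  exists_rep setup mR mRi (by decide +kernel) (by decide +kernel) (by decide +kernel)

def steps : List (ℕ × ℕ × ℕ × ℕ) := [
  (1, 1, 1, 35518111575),
  (1, 1, 2, 26711444097),
  (0, 3, 1, 34630287489),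
  (0, 4, 4, 24475083163),
  (0, 3, 4, 39242651351),
  (0, 4, 4, 58568499482),
  (0, 5, 4, 8154470295),
  (0, 3, 8, 47715487098),
  (0, 3, 9, 35277926532),
  (0, 4, 8, 55338490330),
  (0, 3, 11, 35226652839),
  (0, 4, 10, 17758171226),
  (0, 4, 10, 26643302266),
  (0, 4, 14, 14438218669),
  (0, 5, 14, 23869423236),
  (0, 6, 13, 26721547012),
  (0, 6, 15, 45090794874),
  (0, 6, 18, 15016520429),
  (0, 6, 17, 11157290362),
  (0, 6, 20, 58155442478),
  (0, 7, 19, 37353809563),
  (0, 7, 22, 20750543198),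
  (0, 8, 22, 18934511277),
  (0, 8, 24, 14570314651),
  (0, 9, 23, 19930002775),
  (0, 9, 26, 14272093077),
  (0, 8, 26, 53922883245),
  (0, 10, 10, 56105193604),
  (0, 17, 0, 20194349185),
  (1, 0, 30, 53199138945),
  (0, 29, 5, 60321221082),
  (0, 27, 0, 18931741249),
  (1, 0, 33, 20955650689),
  (0, 26, 25, 51838722301),
  (0, 27, 0, 36256473665),
  (1, 0, 36, 36239827521),
  (0, 21, 10, 14832744813),
  (0, 36, 0, 34647232705),
  (1, 0, 39, 34647232705),
  (0, 10, 7, 54650436225),
  (0, 11, 7, 51859214017),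
  (0, 12, 6, 20938816129),
  (0, 13, 4, 20177670337),
  (0, 13, 11, 37772558017),
  (0, 12, 14, 60543394369),
  (0, 13, 7, 18948542977),
  (0, 13, 13, 11050937985),
  (0, 11, 0, 11704882881),
  (0, 8, 0, 51808584193),
  (1, 0, 50, 51808584193),
  (0, 17, 14, 20177510529),
  (0, 4, 0, 43526934145),
  (1, 0, 53, 11687970433),
  (0, 13, 13, 35704369281),
  (0, 12, 0, 19864767105),
  (1, 0, 56, 17857790465),
  (0, 21, 13, 60560232961),
  (0, 0, 28, 18931929601),
  (0, 18, 0, 60802745985),
  (1, 0, 60, 26577227393),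
  (0, 11, 4, 18025562241),
  (0, 0, 9, 11050438273),
  (0, 9, 0, 52125253761),
  (1, 0, 64, 20177240193),
  (0, 14, 11, 11323065985),
  (0, 13, 0, 34672754817),
  (1, 0, 67, 34672754817),
  (0, 11, 18, 60802745985),
  (0, 0, 12, 43770200577),
  (0, 20, 0, 54234988673),
  (1, 0, 71, 18025562241),
  (0, 16, 22, 54234988673),
  (0, 0, 13, 60543222273),
  (0, 24, 0, 36824432769),
  (1, 0, 75, 36824432769),
  (0, 8, 4, 20147880065),
  (0, 12, 0, 52078592129),
  (1, 0, 78, 17987289217)]

def mats : List ℕ := [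
  17987289217,
  52078592129,
  20147880065,
  36824432769,
  36824432769,
  60543222273,
  54234988673,
  18025562241,
  54234988673,
  43770200577,
  60802745985,
  34672754817,
  34672754817,
  11323065985,
  20177240193,
  52125253761,
  11050438273,
  18025562241,
  26577227393,
  60802745985,
  18931929601,
  60560232961,
  17857790465,
  19864767105,
  35704369281,
  11687970433,
  43526934145,
  20177510529,
  51808584193,
  51808584193,
  11704882881,
  11050937985,
  18948542977,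
  60543394369,
  37772558017,
  20177670337,
  20938816129,
  51859214017,
  54650436225,
  34647232705,
  34647232705,
  14832744813,
  36239827521,
  36256473665,
  51838722301,
  20955650689,
  18931741249,
  60321221082,
  53199138945,
  20194349185,
  56105193604,
  53922883245,
  14272093077,
  19930002775,
  14570314651,
  18934511277,
  20750543198,
  37353809563,
  58155442478,
  11157290362,
  15016520429,
  45090794874,
  26721547012,
  23869423236,
  14438218669,
  26643302266,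
  17758171226,
  35226652839,
  55338490330,
  35277926532,
  47715487098,
  8154470295,
  58568499482,
  39242651351,
  24475083163,
  34630287489,
  26711444097,
  35518111575,
  52212813441,
  14379897389]

theorem slp_ok : slpOK 6 steps [m2, m1] = true := by decide +kernel

theorem slp_out : slpOut steps [m2, m1] = mats := by decide +kernel

def levels : List (ℕ × List ℕ) := [
  (1, [0, 34630287489, 17758171226, 37353809563, 35226652839, 0, 18934511277, 0, 11157290362, 55338490330, 0, 0, 19930002775, 0, 0, 26721547012, 0, 0, 0, 0, 0, 39242651351, 0, 14379897389, 0, 0, 24475083163, 58568499482, 0, 14272093077, 58155442478, 0, 0, 0, 0, 0, 0, 53922883245, 0, 35277926532, 0, 0, 26643302266, 45090794874, 0, 35518111575, 20750543198, 0, 0, 0, 0, 0, 0, 15016520429, 0, 23869423236, 0, 0, 47715487098, 14570314651, 0, 8154470295, 14438218669, 0]),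
  (4, [0, 0, 0, 0, 34630287489, 0, 11050937985, 0, 0, 0, 0, 0, 60543394369, 0, 0, 20177670337, 0, 0, 0, 0, 0, 53199138945, 0, 20938816129, 0, 0, 0, 0, 0, 18931741249, 36239827521, 0, 0, 0, 0, 0, 0, 54650436225, 0, 20194349185, 0, 0, 0, 0, 0, 34647232705, 51859214017, 0, 0, 0, 0, 0, 0, 18948542977, 0, 20955650689, 0, 0, 0, 0, 0, 37772558017, 36256473665, 0]),
  (2, [0, 0, 34630287489, 0, 0, 0, 0, 0, 51808584193, 0, 0, 0, 0, 0, 0, 0, 0, 0, 0, 0, 0, 0, 0, 0, 0, 0, 43526934145, 0, 0, 0, 0, 0, 0, 0, 0, 0, 0, 0, 0, 0, 0, 0, 17857790465, 0, 0, 0, 0, 0, 0, 0, 0, 0, 0, 0, 0, 0, 0, 0, 11687970433, 0, 0, 0, 0, 0]),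
  (8, [0, 0, 0, 0, 0, 0, 0, 0, 34630287489, 0, 0, 0, 0, 0, 0, 0, 0, 0, 0, 0, 0, 0, 0, 0, 0, 0, 54234988673, 0, 0, 0, 0, 0, 0, 0, 0, 0, 0, 0, 0, 0, 0, 0, 52125253761, 0, 0, 0, 0, 0, 0, 0, 0, 0, 0, 0, 0, 0, 0, 0, 20177240193, 0, 0, 0, 0, 0]),
  (16, [0, 0, 0, 0, 0, 0, 0, 0, 0, 0, 0, 0, 0, 0, 0, 0, 34630287489, 0, 0, 0, 0, 0, 0, 0, 0, 0, 0, 0, 0, 0, 0, 0, 17987289217, 0, 0, 0, 0, 0, 0, 0, 0, 0, 0, 0, 0, 0, 0, 0, 52078592129, 0, 0, 0, 0, 0, 0, 0, 0, 0, 0, 0, 0, 0, 0, 0])]

theorem chain_ok : chainOK 6 qB mats [] levels = true := by decide +kernel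

def pEnd : List ℕ := [16, 8, 2, 4, 1]

theorem chain_end : chainEnd [] levels = pEnd := by decide +kernel

theorem lev_R : levelR 6 qB pEnd 32 48 mR = true := by decide +kernel

def rels : List (List Bool) := [[true, true, true], [false, true, false, true, false, true, false, true, false, true]]

theorem rel_ok : relOK 6 m1 m2 rels = true := by decide +kernel

theorem fpf_ok : fpfOK 6 m1 mW = true := by decide +kernel

theorem main (f : ↥(Omega (ZMod 2) Qf) → I → ZMod 2)
    (hf : ∀ g h : ↥(Omega (ZMod 2) Qf), f (g * h) = f g +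
      Matrix.mulVec (((g : ↥(isometryGroup (ZMod 2) Qf)) : GL I (ZMod 2)) : Matrix I I (ZMod 2))
        (f h)) :
    ∃ v : I → ZMod 2, ∀ g : ↥(Omega (ZMod 2) Qf), f g =
      Matrix.mulVec (((g : ↥(isometryGroup (ZMod 2) Qf)) : GL I (ZMod 2)) : Matrix I I (ZMod 2)) v
        - v := by
  obtain ⟨a, ha⟩ := exmA
  obtain ⟨b, hb⟩ := exmB
  obtain ⟨r, hr⟩ := exmR
  have hai : Rep ix 6 a⁻¹ mAi := ha.inv (by decide +kernel)
  have hbi : Rep ix 6 b⁻¹ mBi := hb.inv (by decide +kernel)
  have hri : Rep ix 6 r⁻¹ mRi := hr.inv (by decide +kernel)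
  have h1 : Rep ix 6 ⁅a, b⁆ m1 := by
    rw [commutatorElement_def]
    exact (((ha.mul hb (M := mAB) (by decide +kernel)).mul hai (M := mABA) (by decide +kernel)).mul hbi
      (by decide +kernel))
  have h2 : Rep ix 6 ⁅a, r⁆ m2 := by
    rw [commutatorElement_def]
    exact (((ha.mul hr (M := mCR) (by decide +kernel)).mul hai (M := mCRC) (by decide +kernel)).mul hri
      (by decide +kernel))
  let g1 : ↥(Omega (ZMod 2) Qf) :=
    ⟨⁅a, b⁆, Subgroup.commutator_mem_commutator (Subgroup.mem_top _) (Subgroup.mem_top _)⟩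
  let g2 : ↥(Omega (ZMod 2) Qf) :=
    ⟨⁅a, r⁆, Subgroup.commutator_mem_commutator (Subgroup.mem_top _) (Subgroup.mem_top _)⟩
  let K : Subgroup ↥(isometryGroup (ZMod 2) Qf) := Subgroup.closure {⁅a, b⁆, ⁅a, r⁆}
  have hacc : ∀ M ∈ [m2, m1], ∃ t ∈ K, Rep ix 6 t M := by
    intro M hM
    simp only [List.mem_cons, List.not_mem_nil, or_false] at hM
    rcases hM with rfl | rfl
    · exact ⟨_, Subgroup.subset_closure (by simp), h2⟩
    · exact ⟨_, Subgroup.subset_closure (by simp), h1⟩
  have hm : ∀ M ∈ mats, ∃ t ∈ K, Rep ix 6 t M := by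
    have := slp_sound K steps [m2, m1] hacc slp_ok
    rwa [slp_out] at this
  have hend : ∀ g, Fix ix (chainEnd [] levels) g → g ∈ K ∨ g * r ∈ K := by
    intro g hg
    rw [chain_end] at hg
    rcases fix_cons_R setup (by decide) lev_R hr hg with h | h
    · left
      rw [eq_one_of_fix setup (by decide) h]
      exact K.one_mem
    · right
      have h3 : r * g = 1 := eq_one_of_fix setup (by decide) h
      rw [eq_inv_of_mul_eq_one_right h3, inv_mul_cancel]
      exact K.one_mem
  have hall : ∀ g, g ∈ K ∨ g * r ∈ K := fun g =>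
    chain setup K r mats hm levels [] (by simp) chain_ok hend g (by intro x hx; simp at hx)
  exact h1_zero setup g1 g2 m1 m2 mW h1 h2 fpf_ok rels rel_ok (comm_le K r hall) f hf

end Cfsg.Agent.Lib.Helper33.H1.M6
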