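import Cfsg.Statements.S5405

/-! Generic bit-level framework for orthogonal groups over `ZMod 2` in small dimension. -/

set_option autoImplicit false
open scoped MatrixGroups
open Cfsg

namespace Cfsg.Agent.Lib.Helper33.H1

variable {ι : Type} [Fintype ι] [DecidableEq ι]

/-- decode a bitmask as a vector -/
def dec (ix : ι → ℕ) (n : ℕ) : ι → ZMod 2 := fun i => if n.testBit (ix i) then 1 else 0

def appAux (d : ℕ) : ℕ → ℕ → ℕ → ℕ → ℕ
  | 0, _, _, acc => acc
  | k+1, M, n, acc =>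
      appAux d k (M >>> d) (n >>> 1) (bif n % 2 == 1 then acc ^^^ (M % 2 ^ d) else acc)

/-- apply a packed matrix (columns of `d` bits) to a bitmask -/
def app (d M n : ℕ) : ℕ := appAux d d M n 0

theorem dec_xor (ix : ι → ℕ) (a b : ℕ) : dec ix (a ^^^ b) = dec ix a + dec ix b := by
  funext i
  simp only [dec, Nat.testBit_xor, Pi.add_apply]
  cases a.testBit (ix i) <;> cases b.testBit (ix i) <;> decide

theorem dec_zero (ix : ι → ℕ) : dec ix 0 = 0 := by
  funext i
  simp [dec]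

structure Setup (Q : (ι → ZMod 2) → ZMod 2) (ix : ι → ℕ) (d : ℕ) (qB : ℕ → Bool) : Prop where
  card : Fintype.card ι = d
  inj0 : ∀ k < 2 ^ d, dec ix k = 0 → k = 0
  hQ : ∀ n < 2 ^ d, Q (dec ix n) = if qB n then 1 else 0
  ixinj : Function.Injective ix

section
variable {Q : (ι → ZMod 2) → ZMod 2} {ix : ι → ℕ} {d : ℕ} {qB : ℕ → Bool}

theorem Setup.dec_inj (S : Setup Q ix d qB) {a b : ℕ} (ha : a < 2 ^ d) (hb : b < 2 ^ d)
    (h : dec ix a = dec ix b) : a = b := by
  have h1 : dec ix (a ^^^ b) = 0 := by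
    rw [dec_xor, h]
    funext i
    exact CharTwo.add_self_eq_zero _
  have h2 := S.inj0 _ (Nat.xor_lt_two_pow ha hb) h1
  exact Nat.xor_eq_zero_iff.mp h2

theorem Setup.dec_surj (S : Setup Q ix d qB) (v : ι → ZMod 2) : ∃ n < 2 ^ d, dec ix n = v := by
  have hb : Function.Bijective (fun n : Fin (2 ^ d) => dec ix n.val) := by
    rw [Fintype.bijective_iff_injective_and_card]
    refine ⟨fun a b h => Fin.ext (S.dec_inj a.2 b.2 h), ?_⟩
    simp [S.card, ZMod.card]
  obtain ⟨n, hn⟩ := hb.2 v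
  exact ⟨n.val, n.2, hn⟩

theorem Setup.qB_eq (S : Setup Q ix d qB) {a b : ℕ} (ha : a < 2 ^ d) (hb : b < 2 ^ d)
    (h : Q (dec ix a) = Q (dec ix b)) : qB a = qB b := by
  rw [S.hQ a ha, S.hQ b hb] at h
  cases h1 : qB a <;> cases h2 : qB b <;> simp_all

end

/-- the action of the isometry group on vectors -/
def act {Q : (ι → ZMod 2) → ZMod 2} (g : ↥(isometryGroup (ZMod 2) Q)) (v : ι → ZMod 2) :
    ι → ZMod 2 :=
  Matrix.mulVec ((g : GL ι (ZMod 2)) : Matrix ι ι (ZMod 2)) v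

section
variable {Q : (ι → ZMod 2) → ZMod 2}

theorem act_mul (g h : ↥(isometryGroup (ZMod 2) Q)) (v : ι → ZMod 2) :
    act (g * h) v = act g (act h v) := by
  simp [act, Matrix.mulVec_mulVec]

theorem act_one (v : ι → ZMod 2) : act (1 : ↥(isometryGroup (ZMod 2) Q)) v = v := by
  simp [act]

theorem act_add (g : ↥(isometryGroup (ZMod 2) Q)) (v w : ι → ZMod 2) :
    act g (v + w) = act g v + act g w := Matrix.mulVec_add _ _ _

theorem act_sub (g : ↥(isometryGroup (ZMod 2) Q)) (v w : ι → ZMod 2) :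
    act g (v - w) = act g v - act g w := Matrix.mulVec_sub _ _ _

theorem act_zero (g : ↥(isometryGroup (ZMod 2) Q)) : act g 0 = 0 := Matrix.mulVec_zero _

theorem Q_act (g : ↥(isometryGroup (ZMod 2) Q)) (v : ι → ZMod 2) : Q (act g v) = Q v :=
  g.2 v v

theorem act_inv_act (g : ↥(isometryGroup (ZMod 2) Q)) (v : ι → ZMod 2) :
    act g⁻¹ (act g v) = v := by
  rw [← act_mul, inv_mul_cancel, act_one]

theorem eq_one_of_act (g : ↥(isometryGroup (ZMod 2) Q)) (h : ∀ v, act g v = v) : g = 1 := by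
  apply Subtype.ext
  apply Units.ext
  apply Matrix.mulVec_injective
  funext v
  simpa [act] using h v

end

/-- `M` represents `g` -/
def Rep {Q : (ι → ZMod 2) → ZMod 2} (ix : ι → ℕ) (d : ℕ) (g : ↥(isometryGroup (ZMod 2) Q))
    (M : ℕ) : Prop :=
  ∀ n < 2 ^ d, app d M n < 2 ^ d ∧ act g (dec ix n) = dec ix (app d M n)

def mulOK (d A B M : ℕ) : Bool :=
  (List.range (2 ^ d)).all fun n => app d A (app d B n) == app d M n && decide (app d M n < 2 ^ d)

def invOK (d A M : ℕ) : Bool :=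
  (List.range (2 ^ d)).all fun n => app d M (app d A n) == n && decide (app d M n < 2 ^ d)
    && app d A (app d M n) == n

section
variable {Q : (ι → ZMod 2) → ZMod 2} {ix : ι → ℕ} {d : ℕ} {qB : ℕ → Bool}

theorem Rep.mul {g h : ↥(isometryGroup (ZMod 2) Q)} {A B M : ℕ} (hg : Rep ix d g A)
    (hh : Rep ix d h B) (hc : mulOK d A B M = true) : Rep ix d (g * h) M := by
  intro n hn
  have h1 := (List.all_eq_true.mp hc) n (List.mem_range.mpr hn)
  simp only [Bool.and_eq_true, beq_iff_eq, decide_eq_true_eq] at h1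
  refine ⟨h1.2, ?_⟩
  rw [act_mul, (hh n hn).2, (hg _ (hh n hn).1).2, h1.1]

theorem Rep.inv {g : ↥(isometryGroup (ZMod 2) Q)} {A M : ℕ} (hg : Rep ix d g A)
    (hc : invOK d A M = true) : Rep ix d g⁻¹ M := by
  intro n hn
  have h1 := (List.all_eq_true.mp hc) n (List.mem_range.mpr hn)
  simp only [Bool.and_eq_true, beq_iff_eq, decide_eq_true_eq] at h1
  refine ⟨h1.1.2, ?_⟩
  have h2 := (hg _ h1.1.2).2
  rw [h1.2] at h2
  rw [← h2, act_inv_act]

end

end Cfsg.Agent.Lib.Helper33.H1
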