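import Cfsg.Agent.Lib.Helper33.H1a

/-! Straight line programs, stabiliser chain sifting, index two. -/

set_option autoImplicit false
set_option linter.unusedSectionVars false
open scoped MatrixGroups
open Cfsg

namespace Cfsg.Agent.Lib.Helper33.H1

variable {ι : Type} [Fintype ι] [DecidableEq ι]

def slpOK (d : ℕ) : List (ℕ × ℕ × ℕ × ℕ) → List ℕ → Bool
  | [], _ => true
  | (k, a, b, M) :: rest, acc =>
    (decide (a < acc.length) && decide (b < acc.length) &&
      (if k = 0 then mulOK d (acc.getD a 0) (acc.getD b 0) M else invOK d (acc.getD a 0) M))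
      && slpOK d rest (M :: acc)

def slpOut : List (ℕ × ℕ × ℕ × ℕ) → List ℕ → List ℕ
  | [], acc => acc
  | (_, _, _, M) :: rest, acc => slpOut rest (M :: acc)

theorem getD_mem' (l : List ℕ) (a : ℕ) (h : a < l.length) : l.getD a 0 ∈ l := by
  rw [List.getD_eq_getElem _ _ h]
  exact List.getElem_mem h

variable {Q : (ι → ZMod 2) → ZMod 2} {ix : ι → ℕ} {d : ℕ} {qB : ℕ → Bool}

theorem slp_sound (K : Subgroup ↥(isometryGroup (ZMod 2) Q)) :
    ∀ (steps : List (ℕ × ℕ × ℕ × ℕ)) (acc : List ℕ),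
      (∀ M ∈ acc, ∃ t ∈ K, Rep ix d t M) → slpOK d steps acc = true →
      ∀ M ∈ slpOut steps acc, ∃ t ∈ K, Rep ix d t M
  | [], acc, hacc, _ => hacc
  | (k, a, b, M) :: rest, acc, hacc, h => by
    simp only [slpOK, Bool.and_eq_true, decide_eq_true_eq] at h
    obtain ⟨⟨⟨ha, hb⟩, hk⟩, hrest⟩ := h
    apply slp_sound K rest (M :: acc) _ hrest
    intro M' hM'
    rcases List.mem_cons.mp hM' with rfl | hM'
    · obtain ⟨t, ht, hrt⟩ := hacc _ (getD_mem' acc a ha)
      obtain ⟨u, hu, hru⟩ := hacc _ (getD_mem' acc b hb)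
      by_cases hk0 : k = 0
      · rw [if_pos hk0] at hk
        exact ⟨t * u, K.mul_mem ht hu, hrt.mul hru hk⟩
      · rw [if_neg hk0] at hk
        exact ⟨t⁻¹, K.inv_mem ht, hrt.inv hk⟩
    · exact hacc _ hM'

def cond (qB : ℕ → Bool) (P : List ℕ) (c n : ℕ) : Bool :=
  n != 0 && (qB n == qB c) && P.all fun a => qB (a ^^^ n) == qB (a ^^^ c)

def nz (d : ℕ) (qB : ℕ → Bool) (c : ℕ) : Bool :=
  decide (c < 2 ^ d) && (List.range (2 ^ d)).any (fun m => qB (c ^^^ m) != qB m)

def Fix (ix : ι → ℕ) (P : List ℕ) (g : ↥(isometryGroup (ZMod 2) Q)) : Prop :=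
  ∀ a ∈ P, act g (dec ix a) = dec ix a

theorem dec_ne_zero (S : Setup Q ix d qB) {c : ℕ} (h : nz d qB c = true) :
    c < 2 ^ d ∧ dec ix c ≠ 0 := by
  simp only [nz, Bool.and_eq_true, decide_eq_true_eq, List.any_eq_true, List.mem_range,
    bne_iff_ne] at h
  obtain ⟨hc, m, hm, hne⟩ := h
  refine ⟨hc, fun h0 => hne ?_⟩
  apply S.qB_eq (Nat.xor_lt_two_pow hc hm) hm
  rw [dec_xor, h0, zero_add]

theorem cond_of_fix (S : Setup Q ix d qB) {P : List ℕ} (hP : ∀ a ∈ P, a < 2 ^ d) {c n : ℕ}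
    (hc : nz d qB c = true) (hn : n < 2 ^ d) {g : ↥(isometryGroup (ZMod 2) Q)}
    (hg : Fix ix P g) (hgn : act g (dec ix c) = dec ix n) : cond qB P c n = true := by
  obtain ⟨hc1, hc2⟩ := dec_ne_zero S hc
  simp only [cond, Bool.and_eq_true, bne_iff_ne, beq_iff_eq, List.all_eq_true]
  refine ⟨⟨?_, ?_⟩, ?_⟩
  · rintro rfl
    apply hc2
    rw [dec_zero] at hgn
    have := act_inv_act g (dec ix c)
    rw [hgn, act_zero] at this
    exact this.symm
  · apply S.qB_eq hn hc1
    rw [← hgn, Q_act g]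
  · intro a ha
    apply S.qB_eq (Nat.xor_lt_two_pow (hP a ha) hn) (Nat.xor_lt_two_pow (hP a ha) hc1)
    rw [dec_xor, dec_xor, ← hgn]
    conv_lhs => rw [← hg a ha]
    rw [← act_add, Q_act g]

def levelOK (d : ℕ) (qB : ℕ → Bool) (mats : List ℕ) (P : List ℕ) (c : ℕ) (T : List ℕ) : Bool :=
  nz d qB c &&
  (List.range (2 ^ d)).all fun n => !(cond qB P c n) ||
     (mats.contains (T.getD n 0) && app d (T.getD n 0) n == c &&
        P.all fun a => app d (T.getD n 0) a == a)

theorem step (S : Setup Q ix d qB) (K : Subgroup ↥(isometryGroup (ZMod 2) Q))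
    (r : ↥(isometryGroup (ZMod 2) Q)) (mats : List ℕ)
    (hm : ∀ M ∈ mats, ∃ t ∈ K, Rep ix d t M) (P : List ℕ) (c : ℕ) (T : List ℕ)
    (hP : ∀ a ∈ P, a < 2 ^ d) (hc : levelOK d qB mats P c T = true)
    (hnext : ∀ g, Fix ix (c :: P) g → g ∈ K ∨ g * r ∈ K) :
    ∀ g, Fix ix P g → g ∈ K ∨ g * r ∈ K := by
  intro g hg
  simp only [levelOK, Bool.and_eq_true, List.all_eq_true, List.mem_range, Bool.or_eq_true,
    Bool.not_eq_true', beq_iff_eq, List.contains_iff_mem] at hc
  obtain ⟨hnz, hall⟩ := hc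
  obtain ⟨n, hn, hgn⟩ := S.dec_surj (act g (dec ix c))
  have hcond := cond_of_fix S hP hnz hn hg hgn.symm
  rcases hall n hn with h | ⟨⟨hmem, hMn⟩, hMP⟩
  · rw [hcond] at h; exact absurd h (by simp)
  obtain ⟨t, ht, hrt⟩ := hm _ hmem
  have hfix : Fix ix (c :: P) (t * g) := by
    intro a ha
    rcases List.mem_cons.mp ha with rfl | ha
    · rw [act_mul, ← hgn, (hrt n hn).2, hMn]
    · rw [act_mul, hg a ha, (hrt a (hP a ha)).2, hMP a ha]
  rcases hnext _ hfix with h | h
  · left; exact (K.mul_mem_cancel_left ht).mp h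
  · right; rw [mul_assoc] at h; exact (K.mul_mem_cancel_left ht).mp h

def chainOK (d : ℕ) (qB : ℕ → Bool) (mats : List ℕ) : List ℕ → List (ℕ × List ℕ) → Bool
  | _, [] => true
  | P, (c, T) :: ls => levelOK d qB mats P c T && chainOK d qB mats (c :: P) ls

def chainEnd : List ℕ → List (ℕ × List ℕ) → List ℕ
  | P, [] => P
  | P, (c, _) :: ls => chainEnd (c :: P) ls

theorem chain (S : Setup Q ix d qB) (K : Subgroup ↥(isometryGroup (ZMod 2) Q))
    (r : ↥(isometryGroup (ZMod 2) Q)) (mats : List ℕ)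
    (hm : ∀ M ∈ mats, ∃ t ∈ K, Rep ix d t M) :
    ∀ (ls : List (ℕ × List ℕ)) (P : List ℕ), (∀ a ∈ P, a < 2 ^ d) →
      chainOK d qB mats P ls = true →
      (∀ g, Fix ix (chainEnd P ls) g → g ∈ K ∨ g * r ∈ K) →
      ∀ g, Fix ix P g → g ∈ K ∨ g * r ∈ K
  | [], _, _, _, h => h
  | (c, T) :: ls, P, hP, hc, h => by
    simp only [chainOK, Bool.and_eq_true] at hc
    apply step S K r mats hm P c T hP hc.1
    apply chain S K r mats hm ls (c :: P) _ hc.2 h
    intro a ha
    rcases List.mem_cons.mp ha with rfl | ha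
    · have := hc.1
      simp only [levelOK, Bool.and_eq_true] at this
      exact (dec_ne_zero S this.1).1
    · exact hP a ha

def levelU (d : ℕ) (qB : ℕ → Bool) (P : List ℕ) (c : ℕ) : Bool :=
  nz d qB c && (List.range (2 ^ d)).all fun n => !(cond qB P c n) || n == c

theorem fix_cons (S : Setup Q ix d qB) {P : List ℕ} {c : ℕ} (hP : ∀ a ∈ P, a < 2 ^ d)
    (hc : levelU d qB P c = true) {g : ↥(isometryGroup (ZMod 2) Q)} (hg : Fix ix P g) :
    Fix ix (c :: P) g := by
  simp only [levelU, Bool.and_eq_true, List.all_eq_true, List.mem_range, Bool.or_eq_true,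
    Bool.not_eq_true', beq_iff_eq] at hc
  obtain ⟨hnz, hall⟩ := hc
  obtain ⟨n, hn, hgn⟩ := S.dec_surj (act g (dec ix c))
  have hcond := cond_of_fix S hP hnz hn hg hgn.symm
  intro a ha
  rcases List.mem_cons.mp ha with rfl | ha
  · rcases hall n hn with h | h
    · rw [hcond] at h; exact absurd h (by simp)
    · rw [← hgn, h]
  · exact hg a ha

def levelR (d : ℕ) (qB : ℕ → Bool) (P : List ℕ) (c c' R : ℕ) : Bool :=
  nz d qB c && decide (c' < 2 ^ d) &&
  ((List.range (2 ^ d)).all fun n => !(cond qB P c n) || (n == c || n == c')) &&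
  app d R c' == c && P.all fun a => app d R a == a

theorem fix_cons_R (S : Setup Q ix d qB) {P : List ℕ} {c c' R : ℕ} (hP : ∀ a ∈ P, a < 2 ^ d)
    (hc : levelR d qB P c c' R = true) {r : ↥(isometryGroup (ZMod 2) Q)} (hr : Rep ix d r R)
    {g : ↥(isometryGroup (ZMod 2) Q)} (hg : Fix ix P g) :
    Fix ix (c :: P) g ∨ Fix ix (c :: P) (r * g) := by
  simp only [levelR, Bool.and_eq_true, List.all_eq_true, List.mem_range, Bool.or_eq_true,
    Bool.not_eq_true', beq_iff_eq, decide_eq_true_eq] at hc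
  obtain ⟨⟨⟨⟨hnz, hc'⟩, hall⟩, hRc⟩, hRP⟩ := hc
  obtain ⟨n, hn, hgn⟩ := S.dec_surj (act g (dec ix c))
  have hcond := cond_of_fix S hP hnz hn hg hgn.symm
  rcases hall n hn with h | h | h
  · rw [hcond] at h; exact absurd h (by simp)
  · left
    intro a ha
    rcases List.mem_cons.mp ha with rfl | ha
    · rw [← hgn, h]
    · exact hg a ha
  · right
    intro a ha
    rcases List.mem_cons.mp ha with rfl | ha
    · rw [act_mul, ← hgn, h, (hr c' hc').2, hRc]
    · rw [act_mul, hg a ha, (hr a (hP a ha)).2, hRP a ha]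

theorem eq_one_of_fix (S : Setup Q ix d qB) {P : List ℕ} (hP : ∀ j : ι, 2 ^ (ix j) ∈ P)
    {g : ↥(isometryGroup (ZMod 2) Q)} (hg : Fix ix P g) : g = 1 := by
  have hs : ∀ j : ι, dec ix (2 ^ (ix j)) = Pi.single j 1 := by
    intro j
    funext i
    by_cases hij : i = j
    · subst hij; simp [dec, Nat.testBit_two_pow]
    · have : ix j ≠ ix i := fun h => hij (S.ixinj h).symm
      simp [dec, Nat.testBit_two_pow, hij, this]
  apply Subtype.ext
  apply Units.ext
  ext i j
  have h1 := congrFun (hg _ (hP j)) i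
  rw [hs j] at h1
  simp only [act, Matrix.mulVec_single_one] at h1
  simpa [Matrix.one_apply, Pi.single_apply] using h1

theorem comm_le {G : Type*} [Group G] (K : Subgroup G) (r : G) (h : ∀ g, g ∈ K ∨ g * r ∈ K) :
    commutator G ≤ K := by
  by_cases hr : r ∈ K
  · have : K = ⊤ := by
      rw [eq_top_iff]
      intro g _
      rcases h g with h1 | h1
      · exact h1
      · exact (K.mul_mem_cancel_right hr).mp h1
    rw [this]; exact le_top
  · have hidx : K.index = 2 := by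
      rw [Subgroup.index_eq_two_iff]
      refine ⟨r, fun b => ?_⟩
      rcases h b with h1 | h1
      · right
        exact ⟨h1, fun h2 => hr ((K.mul_mem_cancel_left h1).mp h2)⟩
      · left
        exact ⟨h1, fun h2 => hr ((K.mul_mem_cancel_left h2).mp h1)⟩
    rw [commutator_def, Subgroup.commutator_le]
    intro a _ b _
    rw [commutatorElement_def]
    simp only [Subgroup.mul_mem_iff_of_index_two hidx, inv_mem_iff]
    tauto

end Cfsg.Agent.Lib.Helper33.H1
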