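import Cfsg.Agent.Lib.Helper33.H1b

/-! Cocycles and construction of isometries from packed matrices. -/

set_option autoImplicit false
set_option linter.unusedSectionVars false
open scoped MatrixGroups
open Cfsg

namespace Cfsg.Agent.Lib.Helper33.H1

variable {ι : Type} [Fintype ι] [DecidableEq ι]

def cw (d M1 M2 n : ℕ) : List Bool → ℕ
  | [] => 0
  | b :: l => (bif b then n else 0) ^^^ app d (bif b then M2 else M1) (cw d M1 M2 n l)

def aw (d M1 M2 : ℕ) : List Bool → ℕ → ℕ
  | [], m => m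
  | b :: l, m => app d (bif b then M2 else M1) (aw d M1 M2 l m)

def relOK (d M1 M2 : ℕ) (rels : List (List Bool)) : Bool :=
  rels.all (fun l => (List.range (2 ^ d)).all fun m => aw d M1 M2 l m == m) &&
  (List.range (2 ^ d)).all fun n => n == 0 || rels.any fun l => cw d M1 M2 n l != 0

def fpfOK (d M1 W : ℕ) : Bool :=
  (List.range (2 ^ d)).all fun n =>
    decide (app d W n < 2 ^ d) && (app d M1 (app d W n) ^^^ app d W n == n)

def pw {G : Type*} [Group G] (g1 g2 : G) : List Bool → G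
  | [] => 1
  | b :: l => (bif b then g2 else g1) * pw g1 g2 l

theorem vsub (a b : ι → ZMod 2) : a - b = a + b := by
  funext i
  exact CharTwo.sub_eq_add _ _

variable {Q : (ι → ZMod 2) → ZMod 2} {ix : ι → ℕ} {d : ℕ} {qB : ℕ → Bool}

theorem h1_zero (S : Setup Q ix d qB) (g1 g2 : ↥(Omega (ZMod 2) Q)) (M1 M2 W : ℕ)
    (h1 : Rep ix d (g1 : ↥(isometryGroup (ZMod 2) Q)) M1)
    (h2 : Rep ix d (g2 : ↥(isometryGroup (ZMod 2) Q)) M2)
    (hW : fpfOK d M1 W = true) (rels : List (List Bool)) (hrel : relOK d M1 M2 rels = true)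
    (hgen : commutator ↥(isometryGroup (ZMod 2) Q) ≤
      Subgroup.closure {(g1 : ↥(isometryGroup (ZMod 2) Q)), (g2 : ↥(isometryGroup (ZMod 2) Q))})
    (f : ↥(Omega (ZMod 2) Q) → ι → ZMod 2)
    (hf : ∀ g h : ↥(Omega (ZMod 2) Q), f (g * h) = f g +
      Matrix.mulVec (((g : ↥(isometryGroup (ZMod 2) Q)) : GL ι (ZMod 2)) : Matrix ι ι (ZMod 2))
        (f h)) :
    ∃ v : ι → ZMod 2, ∀ g : ↥(Omega (ZMod 2) Q), f g =
      Matrix.mulVec (((g : ↥(isometryGroup (ZMod 2) Q)) : GL ι (ZMod 2)) : Matrix ι ι (ZMod 2)) v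
        - v := by
  have hf0 : ∀ g h : ↥(Omega (ZMod 2) Q), f (g * h) = f g + act (g : ↥(isometryGroup (ZMod 2) Q)) (f h) := hf
  obtain ⟨n1, hn1, hfn1⟩ := S.dec_surj (f g1)
  have hW1 := (List.all_eq_true.mp hW) n1 (List.mem_range.mpr hn1)
  simp only [Bool.and_eq_true, beq_iff_eq, decide_eq_true_eq] at hW1
  set v0 : ι → ZMod 2 := dec ix (app d W n1) with hv0
  have hg1 : act (g1 : ↥(isometryGroup (ZMod 2) Q)) v0 - v0 = f g1 := by
    rw [hv0, (h1 _ hW1.1).2, vsub, ← dec_xor, hW1.2, hfn1]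
  let f' : ↥(Omega (ZMod 2) Q) → ι → ZMod 2 :=
    fun g => f g - (act (g : ↥(isometryGroup (ZMod 2) Q)) v0 - v0)
  have hf' : ∀ g h : ↥(Omega (ZMod 2) Q),
      f' (g * h) = f' g + act (g : ↥(isometryGroup (ZMod 2) Q)) (f' h) := by
    intro g h
    simp only [f', hf0, Subgroup.coe_mul, act_mul, act_sub]
    abel
  have hone : f' 1 = 0 := by
    have := hf' 1 1
    rw [mul_one, Subgroup.coe_one, act_one] at this
    exact left_eq_add.mp this
  let K0 : Subgroup ↥(Omega (ZMod 2) Q) :=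
    { carrier := {g | f' g = 0}
      mul_mem' := by
        intro a b ha hb
        simp only [Set.mem_setOf_eq] at ha hb ⊢
        rw [hf', ha, hb, act_zero, add_zero]
      one_mem' := hone
      inv_mem' := by
        intro a ha
        simp only [Set.mem_setOf_eq] at ha ⊢
        have := hf' a⁻¹ a
        rw [inv_mul_cancel, hone, ha, act_zero, add_zero] at this
        exact this.symm }
  have hk1 : f' g1 = 0 := by
    simp only [f']
    rw [hg1, sub_self]
  obtain ⟨n2, hn2, hfn2⟩ := S.dec_surj (f' g2)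
  have hpos : 0 < 2 ^ d := Nat.two_pow_pos d
  have hA : ∀ l : List Bool, cw d M1 M2 n2 l < 2 ^ d ∧
      f' (pw g1 g2 l) = dec ix (cw d M1 M2 n2 l) := by
    intro l
    induction l with
    | nil => exact ⟨hpos, by simp only [pw, cw]; rw [hone, dec_zero]⟩
    | cons b l ih =>
      cases b
      · simp only [pw, cw, cond_false]
        refine ⟨Nat.xor_lt_two_pow hpos (h1 _ ih.1).1, ?_⟩
        rw [hf', hk1, ih.2, (h1 _ ih.1).2, dec_xor, dec_zero]
      · simp only [pw, cw, cond_true]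
        refine ⟨Nat.xor_lt_two_pow hn2 (h2 _ ih.1).1, ?_⟩
        rw [hf', ← hfn2, ih.2, (h2 _ ih.1).2, dec_xor]
  have hB : ∀ (l : List Bool) (m : ℕ), m < 2 ^ d → aw d M1 M2 l m < 2 ^ d ∧
      act ((pw g1 g2 l : ↥(Omega (ZMod 2) Q)) : ↥(isometryGroup (ZMod 2) Q)) (dec ix m)
        = dec ix (aw d M1 M2 l m) := by
    intro l m hm
    induction l with
    | nil => exact ⟨hm, by simp only [pw, aw, Subgroup.coe_one, act_one]⟩
    | cons b l ih =>
      cases b
      · simp only [pw, aw, cond_false, Subgroup.coe_mul, act_mul]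
        exact ⟨(h1 _ ih.1).1, by rw [ih.2, (h1 _ ih.1).2]⟩
      · simp only [pw, aw, cond_true, Subgroup.coe_mul, act_mul]
        exact ⟨(h2 _ ih.1).1, by rw [ih.2, (h2 _ ih.1).2]⟩
  simp only [relOK, Bool.and_eq_true, List.all_eq_true, List.mem_range, beq_iff_eq,
    Bool.or_eq_true, List.any_eq_true, bne_iff_ne] at hrel
  obtain ⟨hr1, hr2⟩ := hrel
  have hk2 : f' g2 = 0 := by
    rcases hr2 n2 hn2 with h | ⟨l, hl, hne⟩
    · rw [← hfn2, h, dec_zero]
    · exfalso
      apply hne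
      have hp : pw g1 g2 l = 1 := by
        apply Subtype.ext
        rw [Subgroup.coe_one]
        apply eq_one_of_act
        intro v
        obtain ⟨m, hm, rfl⟩ := S.dec_surj v
        rw [(hB l m hm).2, hr1 l hl m hm]
      have h3 := (hA l).2
      rw [hp, hone] at h3
      exact S.inj0 _ (hA l).1 h3.symm
  have hall : ∀ g : ↥(Omega (ZMod 2) Q), f' g = 0 := by
    intro g
    have hle : Subgroup.closure {(g1 : ↥(isometryGroup (ZMod 2) Q)),
        (g2 : ↥(isometryGroup (ZMod 2) Q))} ≤ K0.map (Omega (ZMod 2) Q).subtype := by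
      rw [Subgroup.closure_le]
      intro x hx
      rcases hx with rfl | hx
      · exact ⟨g1, hk1, rfl⟩
      · rw [Set.mem_singleton_iff] at hx
        subst hx
        exact ⟨g2, hk2, rfl⟩
    obtain ⟨k, hk, hkg⟩ := hle (hgen g.2)
    have : k = g := Subtype.ext hkg
    rw [← this]
    exact hk
  refine ⟨v0, fun g => ?_⟩
  exact sub_eq_zero.mp (hall g)

def toMat (ix : ι → ℕ) (d M : ℕ) : Matrix ι ι (ZMod 2) :=
  fun i j => dec ix (app d M (2 ^ (ix j))) i

def isoOK (d : ℕ) (qB : ℕ → Bool) (M : ℕ) : Bool :=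
  (List.range (2 ^ d)).all fun n => decide (app d M n < 2 ^ d) && (qB (app d M n) == qB n)

theorem exists_rep (S : Setup Q ix d qB) (M M' : ℕ)
    (hreal : ∀ n < 2 ^ d, (toMat ix d M).mulVec (dec ix n) = dec ix (app d M n))
    (hinv : invOK d M M' = true) (hq : isoOK d qB M = true) :
    ∃ g : ↥(isometryGroup (ZMod 2) Q), Rep ix d g M := by
  simp only [isoOK, invOK, Bool.and_eq_true, List.all_eq_true, List.mem_range, beq_iff_eq,
    decide_eq_true_eq] at hq hinv
  have hinj : Function.Injective (toMat ix d M).mulVec := by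
    intro v w hvw
    obtain ⟨n, hn, rfl⟩ := S.dec_surj v
    obtain ⟨m, hm, rfl⟩ := S.dec_surj w
    rw [hreal n hn, hreal m hm] at hvw
    have h3 := S.dec_inj (hq n hn).1 (hq m hm).1 hvw
    have h4 := (hinv n hn).1.1
    rw [h3, (hinv m hm).1.1] at h4
    rw [h4]
  have hU : IsUnit (toMat ix d M) := Matrix.mulVec_injective_iff_isUnit.mp hinj
  refine ⟨⟨hU.unit, ?_⟩, ?_⟩
  · intro u _
    obtain ⟨n, hn, rfl⟩ := S.dec_surj u
    show Q ((toMat ix d M).mulVec (dec ix n)) = Q (dec ix n)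
    rw [hreal n hn, S.hQ _ (hq n hn).1, S.hQ _ hn, (hq n hn).2]
  · intro n hn
    exact ⟨(hq n hn).1, hreal n hn⟩

end Cfsg.Agent.Lib.Helper33.H1
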