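import Cfsg.Agent.Lib.Helper33.H1c

/-! More on `Rep`: uniqueness, identity, products along words. -/

set_option autoImplicit false
set_option linter.unusedSectionVars false
open scoped MatrixGroups
open Cfsg

namespace Cfsg.Agent.Lib.Helper33.H1

variable {ι : Type} [Fintype ι] [DecidableEq ι]
variable {Q : (ι → ZMod 2) → ZMod 2} {ix : ι → ℕ} {d : ℕ} {qB : ℕ → Bool}

theorem Rep.unique (S : Setup Q ix d qB) {g h : ↥(isometryGroup (ZMod 2) Q)} {M : ℕ}
    (hg : Rep ix d g M) (hh : Rep ix d h M) : g = h := by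
  have : g⁻¹ * h = 1 := by
    apply eq_one_of_act
    intro v
    obtain ⟨n, hn, rfl⟩ := S.dec_surj v
    rw [act_mul, (hh n hn).2, ← (hg n hn).2, act_inv_act]
  exact (inv_mul_eq_one.mp this)

theorem Rep.one {M : ℕ} (hI : ∀ n < 2 ^ d, app d M n = n) :
    Rep ix d (1 : ↥(isometryGroup (ZMod 2) Q)) M := by
  intro n hn
  rw [hI n hn, act_one]
  exact ⟨hn, rfl⟩

theorem Rep.app_eq (S : Setup Q ix d qB) {g : ↥(isometryGroup (ZMod 2) Q)} {M M' : ℕ}
    (hg : Rep ix d g M) (hg' : Rep ix d g M') : ∀ n < 2 ^ d, app d M n = app d M' n := by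
  intro n hn
  apply S.dec_inj (hg n hn).1 (hg' n hn).1
  rw [← (hg n hn).2, ← (hg' n hn).2]

theorem Rep.word {n r : ℕ} (ms : Fin n → ℕ) (mg : Fin r → ℕ) (τ : Fin n → Fin r → Fin n)
    (a : Fin r → ↥(isometryGroup (ZMod 2) Q)) (ha : ∀ k, Rep ix d (a k) (mg k))
    (hmul : ∀ i k, mulOK d (ms i) (mg k) (ms (τ i k)) = true) :
    ∀ (l : List (Fin r)) (j : Fin n) (x : ↥(isometryGroup (ZMod 2) Q)), Rep ix d x (ms j) →
      Rep ix d (x * (l.map a).prod) (ms (l.foldl τ j)) := by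
  intro l
  induction l with
  | nil => intro j x hx; simpa using hx
  | cons k l ih =>
    intro j x hx
    rw [List.map_cons, List.prod_cons, ← mul_assoc, List.foldl_cons]
    exact ih _ _ (hx.mul (ha k) (hmul j k))

end Cfsg.Agent.Lib.Helper33.H1
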