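import Cfsg.Agent.Lib.Helper33.SetFam

set_option autoImplicit false

namespace Cfsg.Agent.Lib.Helper33

open Cfsg
open scoped Pointwise

/-- entry `i` of sextet `k` -/
def sxT (tab k i : ℕ) : ℕ := fld24 tab (Nat.add (Nat.mul 6 k) i)

/-- validity check of sextet `k` of the table -/
noncomputable def sxOK (tab pos k : ℕ) : Bool :=
  Nat.beq (Nat.land (sxT tab k 0) 1) 1 &&
  (Nat.beq (fld12 pos (key3 (Nat.xor (sxT tab k 0) 1))) k &&
  (allBelow (fun i => Nat.beq (popc (sxT tab k i)) 4) 6 &&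
   allBelow (fun i => allBelow (fun j => Nat.beq i j ||
      (isCode (Nat.lor (sxT tab k i) (sxT tab k j)) &&
        Nat.beq (popc (Nat.lor (sxT tab k i) (sxT tab k j))) 8)) 6) 6))

/-- every 4-set containing the point of index 0 is the first entry of a sextet of the table -/
noncomputable def sxCoverOK (tab pos n : ℕ) : Bool :=
  allBelow (fun i => allBelow (fun j => allBelow (fun l =>
    Nat.beq i 0 || (Nat.beq j 0 || (Nat.beq l 0 || (Nat.beq i j || (Nat.beq i l || (Nat.beq j l ||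
    (Nat.beq (sxT tab (fld12 pos (Nat.add (Nat.add (Nat.mul 576 i) (Nat.mul 24 j)) l)) 0)
        (Nat.lor 1 (Nat.lor (Nat.lor (Nat.shiftLeft 1 i) (Nat.shiftLeft 1 j)) (Nat.shiftLeft 1 l))) &&
      Nat.blt (fld12 pos (Nat.add (Nat.add (Nat.mul 576 i) (Nat.mul 24 j)) l)) n))))))) 24) 24) 24

structure SxTable (tab pos n : ℕ) : Prop where
  ok : allBelow (sxOK tab pos) n = true
  cov : sxCoverOK tab pos n = true

namespace SxTable

variable {tab pos n : ℕ}

theorem bit0 (h : SxTable tab pos n) {k : ℕ} (hk : k < n) : Nat.land (sxT tab k 0) 1 = 1 := by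
  have := (allBelow_iff _ _).1 h.ok k hk
  simp only [sxOK, Bool.and_eq_true] at this
  exact Nat.eq_of_beq_eq_true this.1

theorem key (h : SxTable tab pos n) {k : ℕ} (hk : k < n) :
    fld12 pos (key3 (Nat.xor (sxT tab k 0) 1)) = k := by
  have := (allBelow_iff _ _).1 h.ok k hk
  simp only [sxOK, Bool.and_eq_true] at this
  exact Nat.eq_of_beq_eq_true this.2.1

theorem pop4 (h : SxTable tab pos n) {k : ℕ} (hk : k < n) {i : ℕ} (hi : i < 6) : popc (sxT tab k i) = 4 := by
  have := (allBelow_iff _ _).1 h.ok k hk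
  simp only [sxOK, Bool.and_eq_true] at this
  exact Nat.eq_of_beq_eq_true ((allBelow_iff _ _).1 this.2.2.1 i hi)

theorem pair (h : SxTable tab pos n) {k : ℕ} (hk : k < n) {i j : ℕ} (hi : i < 6) (hj : j < 6) (hij : i ≠ j) :
    isCode (Nat.lor (sxT tab k i) (sxT tab k j)) = true ∧ popc (Nat.lor (sxT tab k i) (sxT tab k j)) = 8 := by
  have := (allBelow_iff _ _).1 h.ok k hk
  simp only [sxOK, Bool.and_eq_true] at this
  have h2 := (allBelow_iff _ _).1 ((allBelow_iff _ _).1 this.2.2.2 i hi) j hj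
  rw [Bool.or_eq_true, Bool.and_eq_true] at h2
  rcases h2 with h2 | h2
  · exact absurd (Nat.eq_of_beq_eq_true h2) hij
  · exact ⟨h2.1, Nat.eq_of_beq_eq_true h2.2⟩

theorem distinct (h : SxTable tab pos n) {k : ℕ} (hk : k < n) :
    ∀ i < 6, ∀ j < 6, fld24 tab (Nat.add (Nat.mul 6 k) i) = fld24 tab (Nat.add (Nat.mul 6 k) j) → i = j := by
  intro i hi j hj hij
  by_contra hne
  have h8 := (h.pair hk hi hj hne).2
  have h4 := h.pop4 hk hi
  have e : sxT tab k i = sxT tab k j := hij
  rw [← e] at h8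
  have : Nat.lor (sxT tab k i) (sxT tab k i) = sxT tab k i := Nat.or_self _
  rw [this, h4] at h8
  omega

theorem mem (h : SxTable tab pos n) {k : ℕ} (hk : k < n) : objM tab 6 k ∈ sextets := by
  refine ⟨card_objM (h.distinct hk), ?_, ?_⟩
  · intro t ht
    obtain ⟨i, hi, rfl⟩ := mem_objM.1 ht
    rw [card_unmask (fld24_lt _ _)]
    exact h.pop4 hk hi
  · intro t ht u hu hne
    obtain ⟨i, hi, rfl⟩ := mem_objM.1 ht
    obtain ⟨j, hj, rfl⟩ := mem_objM.1 hu
    have hij : i ≠ j := fun e => hne (by rw [e])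
    rw [← unmask_or]
    exact (unmask_mem_octads_iff (Nat.or_lt_two_pow (fld24_lt _ _) (fld24_lt _ _))).2 (h.pair hk hi hj hij)

theorem first_mem (tab k : ℕ) : unmask (sxT tab k 0) ∈ objM tab 6 k :=
  mem_objM.2 ⟨0, by norm_num, rfl⟩

theorem pt0_mem (h : SxTable tab pos n) {k : ℕ} (hk : k < n) : pt 0 ∈ unmask (sxT tab k 0) := by
  rw [mem_unmask, idx_pt (by norm_num)]
  have := h.bit0 hk
  have h2 : (sxT tab k 0) &&& 1 = 1 := this
  rw [Nat.and_one_is_mod] at h2
  rw [Nat.testBit_zero]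
  simp [h2]

theorem tetrad0 (h : SxTable tab pos n) (t : Finset GolayPt) (h4 : t.card = 4) (h0 : pt 0 ∈ t) :
    ∃ k < n, t = unmask (sxT tab k 0) := by
  have hc : (t.erase (pt 0)).card = 3 := by
    rw [Finset.card_erase_of_mem h0, h4]
  obtain ⟨a, b, c, hab, hac, hbc, he⟩ := Finset.card_eq_three.1 hc
  have ha0 : a ≠ pt 0 := by
    have : a ∈ t.erase (pt 0) := by rw [he]; simp
    exact (Finset.mem_erase.1 this).1
  have hb0 : b ≠ pt 0 := by
    have : b ∈ t.erase (pt 0) := by rw [he]; simp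
    exact (Finset.mem_erase.1 this).1
  have hc0 : c ≠ pt 0 := by
    have : c ∈ t.erase (pt 0) := by rw [he]; simp
    exact (Finset.mem_erase.1 this).1
  have hidx : ∀ x : GolayPt, x ≠ pt 0 → idx x ≠ 0 := by
    intro x hx h0
    apply hx
    rw [← pt_idx x, h0]
  have := (allBelow_iff _ _).1 ((allBelow_iff _ _).1 ((allBelow_iff _ _).1 h.cov (idx a) (idx_lt a)) (idx b) (idx_lt b))
    (idx c) (idx_lt c)
  simp only [Bool.or_eq_true, Bool.and_eq_true] at this
  rcases this with h1 | h1 | h1 | h1 | h1 | h1 | ⟨h1, h2⟩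
  · exact absurd (Nat.eq_of_beq_eq_true h1) (hidx a ha0)
  · exact absurd (Nat.eq_of_beq_eq_true h1) (hidx b hb0)
  · exact absurd (Nat.eq_of_beq_eq_true h1) (hidx c hc0)
  · exact absurd (idx_injective (Nat.eq_of_beq_eq_true h1)) hab
  · exact absurd (idx_injective (Nat.eq_of_beq_eq_true h1)) hac
  · exact absurd (idx_injective (Nat.eq_of_beq_eq_true h1)) hbc
  · refine ⟨_, blt_iff.1 h2, ?_⟩
    rw [Nat.eq_of_beq_eq_true h1]
    show t = unmask (Nat.shiftLeft 1 0 ||| ((Nat.shiftLeft 1 (idx a) ||| Nat.shiftLeft 1 (idx b)) ||| Nat.shiftLeft 1 (idx c)))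
    rw [unmask_or, unmask_or, unmask_or, unmask_shift _ (idx_lt a), unmask_shift _ (idx_lt b),
      unmask_shift _ (idx_lt c), unmask_shift 0 (by norm_num), pt_idx, pt_idx, pt_idx]
    rw [← Finset.insert_erase h0, he]
    ext q
    simp only [Finset.mem_insert, Finset.mem_singleton, Finset.mem_union]
    tauto

theorem cover (h : SxTable tab pos n) : ∀ S ∈ sextets, ∃ k < n, S = objM tab 6 k := by
  intro S hS
  obtain ⟨t, ht, h0⟩ := sextet_cover hS (pt 0)
  obtain ⟨k, hk, e⟩ := h.tetrad0 t (hS.2.1 t ht) h0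
  refine ⟨k, hk, sextet_unique hS (h.mem hk) ht ?_⟩
  rw [e]
  exact first_mem _ _

theorem inj (h : SxTable tab pos n) : ∀ k < n, ∀ k' < n, objM tab 6 k = objM tab 6 k' → k = k' := by
  intro k hk k' hk' he
  have h1 : unmask (sxT tab k 0) ∈ objM tab 6 k' := he ▸ first_mem tab k
  have h2 : unmask (sxT tab k 0) = unmask (sxT tab k' 0) := by
    by_contra hne
    have hd := sextet_disjoint (h.mem hk') h1 (first_mem tab k') hne
    exact Finset.disjoint_left.1 hd (h.pt0_mem hk) (h.pt0_mem hk')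
  have h3 : sxT tab k 0 = sxT tab k' 0 := unmask_inj (fld24_lt _ _) (fld24_lt _ _) h2
  rw [← h.key hk, ← h.key hk', h3]

theorem smul_eq (h : SxTable tab pos n) {P k j i : ℕ} (hP : inM24 P = true) (hk : k < n) (hj : j < n) (hi : i < 6)
    (he : permMask P (sxT tab k 0) = sxT tab j i) : permOf P • objM tab 6 k = objM tab 6 j := by
  refine sextet_unique (smul_mem_sextets (permOf_mem_M24 hP) (h.mem hk)) (h.mem hj)
    (t := unmask (sxT tab j i)) ?_ (mem_objM.2 ⟨i, hi, rfl⟩)
  rw [← he, ← smul_unmask (isPerm_of_inM24 hP)]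
  exact Finset.smul_mem_smul_finset (first_mem tab k)

end SxTable

/-- certificate check for node `k` of a forest of sextets -/
noncomputable def sxNodeOK (gens tab par gi mi trs rts ng r k : ℕ) : Bool :=
  Nat.blt (fld4 trs k) r &&
  (Nat.beq k (fld12 rts (fld4 trs k)) ||
   (Nat.blt (fld12 par k) k && (Nat.beq (fld4 trs (fld12 par k)) (fld4 trs k) && (Nat.blt (fld4 gi k) ng &&
     (Nat.blt (fld4 mi k) 6 &&
     Nat.beq (permMask (fldP gens (fld4 gi k)) (sxT tab k 0)) (sxT tab (fld12 par k) (fld4 mi k)))))))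

/-- the packed permutations `gens` lie in `M24` and fix sextet `0` -/
noncomputable def sxGensOK (gens gm tab ng : ℕ) : Bool :=
  allBelow (fun i => inM24 (fldP gens i) && (Nat.blt (fld4 gm i) 6 &&
    Nat.beq (permMask (fldP gens i) (sxT tab 0 0)) (sxT tab 0 (fld4 gm i)))) ng

/-- the `j`-th packed permutation of `fus` lies in `M24` and maps root `j` to sextet `0` -/
noncomputable def sxFuseOK (fus fm tab rts r n : ℕ) : Bool :=
  allBelow (fun j => inM24 (fldP fus j) && (Nat.blt (fld4 fm j) 6 && (Nat.blt (fld12 rts j) n &&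
    Nat.beq (permMask (fldP fus j) (sxT tab (fld12 rts j) 0)) (sxT tab 0 (fld4 fm j))))) r

/-- value of `relSq` between sextet `0` and root `j` -/
noncomputable def sxC (tab rts j : ℕ) : ℕ :=
  sumBelow (fun i => sumBelow (fun i' => Nat.pow (popc (Nat.land (fld24 tab (Nat.add (Nat.mul 6 0) i))
        (fld24 tab (Nat.add (Nat.mul 6 (fld12 rts j)) i')))) 2) 6) 6

theorem sextetRankData (tab pos gens gm fus fm par gi mi trs rts ng r n : ℕ) (c : ℕ → ℕ) (hn : 0 < n)
    (hT : SxTable tab pos n)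
    (hgens : sxGensOK gens gm tab ng = true)
    (hforest : allBelow (sxNodeOK gens tab par gi mi trs rts ng r) n = true)
    (hfuse : sxFuseOK fus fm tab rts r n = true)
    (hc : ∀ j < r, sxC tab rts j = c j)
    (hroots : ∀ j < r, ∀ j' < r, c j = c j' → j = j') :
    RankData ↥M24 sextets relSq (objM tab 6 0)
      (fun i => ((Finset.range n).filter (fun k => c (fld4 trs k) = i)).card) ∧
    (∀ y ∈ sextets, ∃ j < r, relSq (objM tab 6 0) y = c j) := by
  rw [allBelow_iff] at hforest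
  rw [sxGensOK, allBelow_iff] at hgens
  rw [sxFuseOK, allBelow_iff] at hfuse
  have htree : ∀ k < n, fld4 trs k < r := by
    intro k hk
    have := hforest k hk
    rw [sxNodeOK, Bool.and_eq_true] at this
    exact blt_iff.1 this.1
  have hF : ∀ k < n, ∃ g ∈ M24 ⊓ MulAction.stabilizer (Equiv.Perm GolayPt) (objM tab 6 0),
      g • objM tab 6 k = objM tab 6 (fld12 rts (fld4 trs k)) := by
    refine forest_induction _ (fun k => objM tab 6 k) (fun k => fld12 rts (fld4 trs k)) n ?_
    intro k hk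
    have := hforest k hk
    rw [sxNodeOK, Bool.and_eq_true, Bool.or_eq_true] at this
    rcases this.2 with h | h
    · left; exact Nat.eq_of_beq_eq_true h
    · right
      simp only [Bool.and_eq_true] at h
      obtain ⟨h1, h2, h3, h4, h5⟩ := h
      have hg := hgens _ (blt_iff.1 h3)
      simp only [Bool.and_eq_true] at hg
      refine ⟨fld12 par k, blt_iff.1 h1, by rw [Nat.eq_of_beq_eq_true h2], permOf (fldP gens (fld4 gi k)),
        Subgroup.mem_inf.2 ⟨permOf_mem_M24 hg.1, ?_⟩, ?_⟩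
      · rw [MulAction.mem_stabilizer_iff]
        exact hT.smul_eq hg.1 hn hn (blt_iff.1 hg.2.1) (Nat.eq_of_beq_eq_true hg.2.2)
      · exact hT.smul_eq hg.1 hk (lt_trans (blt_iff.1 h1) hk) (blt_iff.1 h4) (Nat.eq_of_beq_eq_true h5)
  have hrt : ∀ j < r, fld12 rts j < n := by
    intro j hj
    have := hfuse j hj
    simp only [Bool.and_eq_true] at this
    exact blt_iff.1 this.2.2.1
  have hcc : ∀ j < r, relSq (objM tab 6 0) (objM tab 6 (fld12 rts j)) = c j := by
    intro j hj
    rw [relSq_objM (hT.distinct hn) (hT.distinct (hrt j hj))]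
    exact hc j hj
  constructor
  · refine RankData.ofForest sextets relSq (objM tab 6 0) (fun k => objM tab 6 k) n
      (fun k => fld12 rts (fld4 trs k)) (fun k => c (fld4 trs k)) (hT.mem hn)
      (fun g y hy => smul_mem_sextets g.2 hy) (fun g x y => relSq_smul g.1 x y) hT.cover
      (fun k hk => hT.mem hk) hT.inj ?_ ?_ ?_ ?_
    · intro k hk
      obtain ⟨g, hg, h⟩ := hF k hk
      exact ⟨⟨g, hg.1⟩, hg.2, h⟩
    · intro k hk
      have := hfuse _ (htree k hk)
      simp only [Bool.and_eq_true] at this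
      exact ⟨⟨permOf (fldP fus (fld4 trs k)), permOf_mem_M24 this.1⟩,
        hT.smul_eq this.1 (blt_iff.1 this.2.2.1) hn (blt_iff.1 this.2.1) (Nat.eq_of_beq_eq_true this.2.2.2)⟩
    · intro k hk
      exact hcc _ (htree k hk)
    · intro k hk k' hk' h
      show fld12 rts (fld4 trs k) = fld12 rts (fld4 trs k')
      rw [hroots _ (htree k hk) _ (htree k' hk') h]
  · intro y hy
    obtain ⟨k, hk, rfl⟩ := hT.cover y hy
    obtain ⟨g, hg, h⟩ := hF k hk
    refine ⟨_, htree k hk, ?_⟩
    rw [← hcc _ (htree k hk), ← h]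
    have h0 : g • objM tab 6 0 = objM tab 6 0 := hg.2
    conv_rhs => rw [← h0]
    exact (relSq_smul g _ _).symm

end Cfsg.Agent.Lib.Helper33
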