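import Cfsg.Agent.Lib.Helper33.H1d
import Cfsg.Agent.Lib.Helper33.H1M6
import Cfsg.Agent.Lib.Helper33.SylA
import Cfsg.Agent.Lib.Helper6.IsomTransport
import Cfsg.Agent.S0288

set_option autoImplicit false
set_option linter.unusedSectionVars false
set_option maxRecDepth 100000
open scoped MatrixGroups
open Cfsg

namespace Cfsg.Agent.Lib.Helper33.Syl.B

open Cfsg.Agent.Lib.Helper33.H1
open Cfsg.Agent.Lib.Helper33.H1.M6 (I Qf ix qB setup)

def msL : List ℕ := [34630287489, 36825227395, 34628715009, 65342556091, 36809764675, 12690680524, 43366793737, 59000768443, 37185496997, 65338362811, 34089189246, 56026229452, 34892077799, 12694873804, 43354475977, 12690705094, 43527284645, 58996575163, 37186283237, 12062141930, 19741453205, 17718853761, 34090761726, 65342781316, 33835113191, 56030422732, 34891291559, 65383095773, 17976383191, 19913793667, 56026254022, 34892053229, 12694898374,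 43528070885, 12060569450, 26083240853, 17717281281, 62070200062, 15233035754, 19742239445, 12062207450, 59000993668, 37185542042, 65338588036, 33834326951, 65395413533, 50742286039, 19898330947, 15862348681, 62212201949, 17975596951, 65383030253, 33835088621, 56030447302, 34891266989, 58838384471, 17976358621, 26455360009, 55728412414, 15231463274, 26084027093, 12060634970, 62066006782, 34630275204, 15233101274, 43527329690, 58996800388, 37186328282, 56657334805, 19741367210, 51000622974, 52856109961, 62224519709, 50741499799, 65395348013, 15866541961, 36825215110, 62212136429, 33834302381, 58853847191, 50742261469, 26443042249, 15862373251, 55667490647, 17975572381, 58838318951, 55724219134, 34628702724, 15231528794, 17718841476, 43528115930, 56658907285, 26083154858, 51002195454, 62070449857, 53486440981, 19742153450, 56657269285, 52860303241, 36809752390, 62224454189, 19913781382,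 52856134531, 55682953367, 50741475229, 58853781671, 15866566531, 43366781452, 55667425127, 17717268996, 55728662209, 53488013461, 26083941098, 56658841765, 62066256577, 34089201531, 53486375461, 19898318662, 52860327811, 43354463692, 55682887847, 26455347724, 55724468929, 34090774011, 53487947941, 51000635259, 26443029964, 51002207739]

def tauL : List ℕ := [1, 2, 3, 0, 4, 5, 6, 0, 7, 8, 9, 0, 10, 1, 11, 12, 13, 1, 2, 14, 15, 16, 17, 2, 3, 18, 19, 20, 3, 21, 4, 22, 23, 24, 25, 4, 5, 26, 27, 28, 5, 29, 22, 6, 30, 31, 32, 6, 7, 33, 34, 35, 7, 36, 37, 8, 38, 27, 34, 8, 9, 39, 40, 29, 36, 9, 14, 10, 41, 42, 43, 10, 11, 44, 45, 46, 11, 47, 48, 12, 49, 19, 45, 12, 13, 50, 51, 21, 47, 13, 52, 53, 14, 15, 54, 55, 56, 15, 57, 58, 16, 59, 55, 19, 16, 17, 60, 61, 57, 21, 17, 18, 62, 63, 49, 59, 18, 62, 20, 64, 51, 61, 20, 65, 66, 22, 23, 67, 68, 69, 23, 70, 71, 24, 72, 68, 27, 24, 25,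 73, 74, 70, 29, 25, 26, 75, 76, 38, 72, 26, 75, 28, 77, 40, 74, 28, 30, 78, 79, 80, 30, 81, 82, 31, 83, 34, 79, 31, 32, 84, 85, 36, 81, 32, 33, 86, 87, 83, 38, 33, 86, 35, 88, 85, 40, 35, 39, 37, 89, 76, 87, 37, 77, 88, 39, 41, 90, 91, 92, 41, 93, 94, 42, 95, 45, 91, 42, 43, 96, 97, 47, 93, 43, 44, 98, 99, 95, 49, 44, 98, 46, 100, 97, 51, 46, 50, 48, 101, 63, 99, 48, 64, 100, 50, 102, 52, 103, 91, 55, 52, 53, 104, 105, 93, 57, 53, 54, 106, 107, 59, 103, 54, 106, 56, 108, 61, 105, 56, 60, 58, 109, 107, 63, 58, 108, 64, 60, 101, 109, 62, 110, 65, 111, 79, 68, 65, 66, 112, 113, 81, 70, 66, 67, 114, 115, 72, 111, 67, 114, 69, 116, 74, 113, 69, 73, 71, 117, 115, 76, 71, 116, 77, 73, 89, 117, 75, 78, 118, 119, 111, 83, 78, 118, 80, 120, 113, 85, 80, 84, 82, 121, 87, 119, 82, 88, 120, 84, 121, 89, 86, 90, 122, 123, 103, 95, 90, 122, 92, 124, 105, 97, 92, 96, 94, 125, 99, 123, 94,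 100, 124, 96, 125, 101, 98, 104, 102, 126, 123, 107, 102, 124, 108, 104, 109, 126, 106, 112, 110, 127, 119, 115, 110, 120, 116, 112, 117, 127, 114, 127, 121, 118, 126, 125, 122]

def wL : List (List ℕ) := [[], [0], [1], [2], [0, 1], [0, 2], [1, 0], [1, 2], [2, 0], [2, 1], [0, 1, 0], [0, 1, 2], [0, 2, 0], [0, 2, 1], [1, 0, 1], [1, 0, 2], [1, 2, 0], [1, 2, 1], [2, 0, 1], [2, 0, 2], [2, 1, 0], [2, 1, 2], [0, 1, 0, 1], [0, 1, 0, 2], [0, 1, 2, 0], [0, 1, 2, 1], [0, 2, 0, 1], [0, 2, 0, 2], [0, 2, 1, 0], [0, 2, 1, 2], [1, 0, 1, 2], [1, 0, 2, 0], [1, 0, 2, 1], [1, 2, 0, 1], [1, 2, 0, 2], [1, 2, 1, 0], [1, 2, 1, 2], [2, 0, 1, 0], [2, 0, 1, 2], [2, 1, 0, 1], [2, 1, 0, 2], [0, 1, 0, 1, 2], [0, 1, 0, 2, 0], [0, 1, 0, 2, 1], [0, 1, 2, 0, 1], [0, 1, 2, 0, 2], [0, 1, 2, 1, 0], [0, 1, 2, 1, 2], [0, 2, 0, 1, 0], [0, 2, 0, 1, 2], [0, 2, 1, 0, 1], [0, 2, 1, 0, 2], [1, 0, 1, 2, 0], [1, 0, 1,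 2, 1], [1, 0, 2, 0, 1], [1, 0, 2, 0, 2], [1, 0, 2, 1, 0], [1, 0, 2, 1, 2], [1, 2, 0, 1, 0], [1, 2, 0, 1, 2], [1, 2, 1, 0, 1], [1, 2, 1, 0, 2], [2, 0, 1, 0, 1], [2, 0, 1, 0, 2], [2, 1, 0, 1, 2], [0, 1, 0, 1, 2, 0], [0, 1, 0, 1, 2, 1], [0, 1, 0, 2, 0, 1], [0, 1, 0, 2, 0, 2], [0, 1, 0, 2, 1, 0], [0, 1, 0, 2, 1, 2], [0, 1, 2, 0, 1, 0], [0, 1, 2, 0, 1, 2], [0, 1, 2, 1, 0, 1], [0, 1, 2, 1, 0, 2], [0, 2, 0, 1, 0, 1], [0, 2, 0, 1, 0, 2], [0, 2, 1, 0, 1, 2], [1, 0, 1, 2, 0, 1], [1, 0, 1, 2, 0, 2], [1, 0, 1, 2, 1, 0], [1, 0, 1, 2, 1, 2], [1, 0, 2, 0, 1, 0], [1, 0, 2, 0, 1, 2], [1, 0, 2, 1, 0, 1], [1, 0, 2, 1, 0, 2], [1, 2, 0, 1, 0, 1], [1, 2, 0, 1, 0, 2], [1, 2, 1, 0, 1, 2], [2, 0, 1, 0, 1, 2], [0, 1, 0, 1, 2, 0, 1], [0, 1, 0, 1, 2, 0, 2], [0, 1, 0, 1, 2, 1, 0], [0, 1, 0, 1, 2, 1, 2], [0, 1, 0, 2, 0, 1, 0], [0, 1, 0, 2, 0, 1, 2], [0, 1, 0, 2, 1, 0, 1], [0, 1, 0, 2, 1, 0, 2], [0, 1,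 2, 0, 1, 0, 1], [0, 1, 2, 0, 1, 0, 2], [0, 1, 2, 1, 0, 1, 2], [0, 2, 0, 1, 0, 1, 2], [1, 0, 1, 2, 0, 1, 0], [1, 0, 1, 2, 0, 1, 2], [1, 0, 1, 2, 1, 0, 1], [1, 0, 1, 2, 1, 0, 2], [1, 0, 2, 0, 1, 0, 1], [1, 0, 2, 0, 1, 0, 2], [1, 0, 2, 1, 0, 1, 2], [1, 2, 0, 1, 0, 1, 2], [0, 1, 0, 1, 2, 0, 1, 0], [0, 1, 0, 1, 2, 0, 1, 2], [0, 1, 0, 1, 2, 1, 0, 1], [0, 1, 0, 1, 2, 1, 0, 2], [0, 1, 0, 2, 0, 1, 0, 1], [0, 1, 0, 2, 0, 1, 0, 2], [0, 1, 0, 2, 1, 0, 1, 2], [0, 1, 2, 0, 1, 0, 1, 2], [1, 0, 1, 2, 0, 1, 0, 1], [1, 0, 1, 2, 0, 1, 0, 2], [1, 0, 1, 2, 1, 0, 1, 2], [1, 0, 2, 0, 1, 0, 1, 2], [0, 1, 0, 1, 2, 0, 1, 0, 1], [0, 1, 0, 1, 2, 0, 1, 0, 2], [0, 1, 0, 1, 2, 1, 0, 1, 2], [0, 1, 0, 2, 0, 1, 0, 1, 2], [1, 0, 1, 2, 0, 1, 0, 1, 2], [0, 1, 0, 1, 2, 0, 1, 0, 1, 2]]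

def ms (i : Fin 128) : ℕ := msL.getD i.val 0
def τ (i : Fin 128) (k : Fin 3) : Fin 128 := Fin.ofNat 128 (tauL.getD (3 * i.val + k.val) 0)
def w (i : Fin 128) : List (Fin 3) := (wL.getD i.val []).map (Fin.ofNat 3)
def mg (k : Fin 3) : ℕ := ms (τ 0 k)
def sig (M : ℕ) : List ℕ := (List.range 6).map fun k => app 6 M (2 ^ k)

theorem hw : ∀ i, (w i).foldl τ 0 = i := by decide +kernel
theorem hmul : ∀ i k, mulOK 6 (ms i) (mg k) (ms (τ i k)) = true := by decide +kernel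
theorem hsq : ∀ k, mulOK 6 (mg k) (mg k) (ms 0) = true := by decide +kernel
theorem hid : ∀ n < 2 ^ 6, app 6 (ms 0) n = n := by decide +kernel
theorem hsig : ∀ i j : Fin 128, sig (ms i) = sig (ms j) → i = j := by decide +kernel

theorem hsqInv : ∀ k, invOK 6 (mg k) (mg k) = true := by decide +kernel

theorem exg : ∀ k : Fin 3, ∃ g : ↥(isometryGroup (ZMod 2) Qf), Rep ix 6 g (mg k) := by
  intro k
  fin_cases k
  · exact exists_rep setup _ _ (by decide +kernel) (hsqInv 0) (by decide +kernel)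
  · exact exists_rep setup _ _ (by decide +kernel) (hsqInv 1) (by decide +kernel)
  · exact exists_rep setup _ _ (by decide +kernel) (hsqInv 2) (by decide +kernel)

def b : Fin 3 → Equiv.Perm (Fin 8)
  | 0 => Equiv.swap 0 1
  | 1 => Equiv.swap 0 2 * Equiv.swap 1 3
  | 2 => Equiv.swap 0 4 * Equiv.swap 1 5 * Equiv.swap 2 6 * Equiv.swap 3 7

def L2 (i : Fin 128) : Equiv.Perm (Fin 8) := ((w i).map b).prod

theorem hb : ∀ k, b k * b k = 1 := by decide +kernel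
theorem h02 : L2 0 = 1 := by decide +kernel
theorem ht2 : ∀ i k, L2 i * b k = L2 (τ i k) := by decide +kernel
theorem inj2 : ∀ i j, L2 i = L2 j → i = j := by decide +kernel

theorem main0 : ∃ (H1 : Subgroup ↥(isometryGroup (ZMod 2) Qf)) (H2 : Subgroup (Equiv.Perm (Fin 8))),
    Nat.card H1 = 128 ∧ Nat.card H2 = 128 ∧ Nonempty (H1 ≃* H2) := by
  choose a ha using exg
  have h1 : Rep ix 6 (1 : ↥(isometryGroup (ZMod 2) Qf)) (ms 0) := Rep.one hid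
  let L1 : Fin 128 → ↥(isometryGroup (ZMod 2) Qf) := fun i => 1 * ((w i).map a).prod
  have hL : ∀ i, Rep ix 6 (L1 i) (ms i) := by
    intro i
    have := Rep.word ms mg τ a ha hmul (w i) 0 1 h1
    rwa [hw] at this
  refine graph_iso L1 L2 a b τ 0 w ?_ h02 ?_ hb ?_ ht2 hw ?_ (fun i j h => inj2 i j h)
  · exact (hL 0).unique setup h1
  · intro k
    exact ((ha k).mul (ha k) (hsq k)).unique setup h1
  · intro i k
    exact ((hL i).mul (ha k) (hmul i k)).unique setup (hL _)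
  · intro i j hij
    apply hsig
    have h3 := (hL i).app_eq setup (hij ▸ hL j)
    simp only [sig]
    apply List.map_congr_left
    intro k hk
    apply h3
    have : k < 6 := List.mem_range.mp hk
    exact Nat.pow_lt_pow_right (by norm_num) this

end Cfsg.Agent.Lib.Helper33.Syl.B
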