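import Cfsg.Agent.Lib.Helper33.SylB

set_option autoImplicit false
set_option linter.unusedSectionVars false
open scoped MatrixGroups
open Cfsg

namespace Cfsg.Agent.Lib.Helper33.Syl.B

open Cfsg.Agent.Lib.Helper33.H1
open Cfsg.Agent.Lib.Helper33.H1.M6 (I Qf ix qB setup)

theorem cardO (K : Type) [Field K] [Fintype K] (hK : Fintype.card K = 2) (a b : K)
    (hab : ∀ z₁ z₂ : K, z₁ ^ 2 + a * z₁ * z₂ + b * z₂ ^ 2 = 0 → z₁ = 0 ∧ z₂ = 0) :
    Nat.card (Cfsg.isometryGroup K (Cfsg.quadFormMinus 2 K a b)) = 51840 := by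
  have := Cfsg.Agent.S0288.result hK 3 (by norm_num) a b hab
  simpa [Finset.prod_range_succ] using this

theorem main (K : Type) [Field K] [Fintype K] (hK : Fintype.card K = 2) (a b : K)
    (hab : ∀ z₁ z₂ : K, z₁ ^ 2 + a * z₁ * z₂ + b * z₂ ^ 2 = 0 → z₁ = 0 ∧ z₂ = 0)
    (P' : Sylow 2 (Equiv.Perm (Fin 8)))
    (Q' : Sylow 2 ↥(Cfsg.isometryGroup K (Cfsg.quadFormMinus 2 K a b))) :
    Nonempty (↥(P' : Subgroup (Equiv.Perm (Fin 8))) ≃*
      ↥(Q' : Subgroup ↥(Cfsg.isometryGroup K (Cfsg.quadFormMinus 2 K a b)))) := by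
  classical
  obtain ⟨H1, H2, c1, c2, ⟨e12⟩⟩ := main0
  let e : ZMod 2 ≃+* K := ZMod.ringEquivOfPrime K Nat.prime_two hK
  have h01 : ∀ x : K, x = 0 ∨ x = 1 := by
    intro x
    obtain ⟨y, rfl⟩ := e.surjective x
    fin_cases y
    · left; exact map_zero e
    · right; exact map_one e
  have h2 : (1 : K) + 1 = 0 := by
    have : e (1 + 1) = 0 := by
      have h : (1 + 1 : ZMod 2) = 0 := by decide
      rw [h, map_zero]
    rwa [map_add, map_one] at this
  have hb1 : b = 1 := by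
    rcases h01 b with h | h
    · exfalso
      have := (hab 0 1 (by rw [h]; ring)).2
      exact one_ne_zero this
    · exact h
  have ha1 : a = 1 := by
    rcases h01 a with h | h
    · exfalso
      have := (hab 1 1 (by rw [h, hb1]; linear_combination h2)).2
      exact one_ne_zero this
    · exact h
  subst ha1 hb1
  have hQ : ∀ v : I → ZMod 2, Cfsg.quadFormMinus 2 K 1 1 (fun i => e (v i)) =
      e (Qf v) := by
    intro v
    simp only [Qf, Cfsg.quadFormMinus, map_sum, map_mul, map_add, map_pow, map_one]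
  let ρ : ↥(isometryGroup (ZMod 2) Qf) →* Matrix I I (ZMod 2) :=
    (Units.coeHom _).comp (Subgroup.subtype _)
  have hρ : ∀ h v, Qf (Matrix.mulVec (ρ h) v) = Qf v := fun h v => h.2 v v
  have hρi : Function.Injective ρ := fun x y h => Subtype.ext (Units.ext h)
  let Φ := Cfsg.Agent.Lib.Helper6.homIsometry e Qf (Cfsg.quadFormMinus 2 K 1 1) hQ ρ hρ
  have hΦ : Function.Injective Φ :=
    Cfsg.Agent.Lib.Helper6.homIsometry_injective e Qf (Cfsg.quadFormMinus 2 K 1 1) hQ ρ hρ hρi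
  have eΦ := H1.equivMapOfInjective Φ hΦ
  have c1' : Nat.card (H1.map Φ) = 2 ^ 7 := by
    rw [← Nat.card_congr eΦ.toEquiv, c1]; norm_num
  have hcO := cardO K hK 1 1 hab
  obtain ⟨eQ⟩ := sylow_equiv 2 7 (H1.map Φ) c1' (by rw [hcO]; norm_num) Q'
  have hcS : Nat.card (Equiv.Perm (Fin 8)) = 40320 := by
    rw [Nat.card_eq_fintype_card, Fintype.card_perm, Fintype.card_fin]
    rfl
  obtain ⟨eP⟩ := sylow_equiv 2 7 H2 (by rw [c2]; norm_num) (by rw [hcS]; norm_num) P'
  exact ⟨eP.trans (e12.symm.trans (eΦ.trans eQ.symm))⟩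

end Cfsg.Agent.Lib.Helper33.Syl.B
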