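import Cfsg.Agent.Lib.Helper33.SylC

set_option autoImplicit false
set_option linter.unusedSectionVars false
open Cfsg

namespace Cfsg.Agent.Lib.Helper33.Syl.A

open Matrix Cfsg.Agent.Lib.Helper43

section
variable {K F : Type*} [Field K] [Field F] {m : ℕ}

theorem J_map' (j : K →+* F) : (J (Fin m) K).map j = J (Fin m) F := by
  ext (i | i) (k | k) <;> simp [J, Matrix.one_apply, apply_ite j]

theorem map_mem_sp' (j : K →+* F) (x : symplecticGroup (Fin m) K) :
    x.1.map j ∈ symplecticGroup (Fin m) F := by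
  have hx := SymplecticGroup.mem_iff.mp x.2
  rw [SymplecticGroup.mem_iff]
  rw [← J_map' j, ← transpose_map, ← Matrix.map_mul, ← Matrix.map_mul, hx]

/-- base change `Sp(K) → Sp(F)` -/
def spMap' (j : K →+* F) : symplecticGroup (Fin m) K →* symplecticGroup (Fin m) F where
  toFun x := ⟨x.1.map j, map_mem_sp' j x⟩
  map_one' := by
    apply Subtype.ext
    show (1 : Matrix (Fin m ⊕ Fin m) (Fin m ⊕ Fin m) K).map j = 1
    exact Matrix.map_one j (map_zero j) (map_one j)
  map_mul' x y := by
    apply Subtype.ext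
    show (x.1 * y.1).map j = x.1.map j * y.1.map j
    exact Matrix.map_mul

/-- `Sp(K) → PSp(F)` -/
def ph (j : K →+* F) : symplecticGroup (Fin m) K →* PSp m F :=
  (QuotientGroup.mk' (Subgroup.center (symplecticGroup (Fin m) F))).comp (spMap' j)

theorem negOne_mem_center : (spNegOne m : symplecticGroup (Fin m) F) ∈
    Subgroup.center (symplecticGroup (Fin m) F) := by
  rw [Subgroup.mem_center_iff]
  intro g
  apply Subtype.ext
  simp [spNegOne]

theorem ph_eq_of_neg (j : K →+* F) (X Y : symplecticGroup (Fin m) K) (h : X.1 = - Y.1) :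
    ph j X = ph j Y := by
  have h1 : spMap' j X = spMap' j Y * spNegOne m := by
    apply Subtype.ext
    show X.1.map j = Y.1.map j * (-1)
    rw [h]
    ext a b
    simp
  show QuotientGroup.mk (spMap' j X) = QuotientGroup.mk (spMap' j Y)
  rw [h1, QuotientGroup.mk_mul, (QuotientGroup.eq_one_iff _).mpr negOne_mem_center, mul_one]

theorem ph_inj (j : K →+* F) (X Y : symplecticGroup (Fin m) K) (h : ph j X = ph j Y) :
    X.1 = Y.1 ∨ Y.1 = - X.1 := by
  have h1 : (spMap' j X)⁻¹ * spMap' j Y ∈ Subgroup.center (symplecticGroup (Fin m) F) :=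
    QuotientGroup.eq.mp h
  rw [← map_inv, ← map_mul] at h1
  have hY : Y = X * (X⁻¹ * Y) := by group
  rcases sp_center_coe m _ h1 with h2 | h2
  · left
    have h3 : (X⁻¹ * Y).1 = 1 := by
      apply Matrix.map_injective j.injective
      show (X⁻¹ * Y).1.map j = (1 : Matrix (Fin m ⊕ Fin m) (Fin m ⊕ Fin m) K).map j
      rw [Matrix.map_one j (map_zero j) (map_one j)]
      exact h2
    have h4 : X⁻¹ * Y = 1 := Subtype.ext h3
    rw [hY, h4, mul_one]
  · right
    have h3 : (X⁻¹ * Y).1 = -1 := by
      apply Matrix.map_injective j.injective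
      have : (-1 : Matrix (Fin m ⊕ Fin m) (Fin m ⊕ Fin m) K).map j = -1 := by
        ext a b
        simp [Matrix.one_apply, apply_ite j]
      show (X⁻¹ * Y).1.map j = (-1 : Matrix (Fin m ⊕ Fin m) (Fin m ⊕ Fin m) K).map j
      rw [this]
      exact h2
    have h5 : Y.1 = X.1 * (X⁻¹ * Y).1 := congrArg Subtype.val hY
    rw [h5, h3, mul_neg, mul_one]

end

theorem card_center_le {F : Type*} [Field F] [Finite F] (m : ℕ) :
    Nat.card (Subgroup.center (symplecticGroup (Fin m) F)) ≤ 2 := by
  classical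
  have : Finite (symplecticGroup (Fin m) F) :=
    Finite.of_injective (fun z => (z : Matrix (Fin m ⊕ Fin m) (Fin m ⊕ Fin m) F))
      Subtype.val_injective
  let f : Subgroup.center (symplecticGroup (Fin m) F) → Bool := fun z => decide (z.1.1 = 1)
  have hf : Function.Injective f := by
    intro x y hxy
    apply Subtype.ext
    apply Subtype.ext
    simp only [f, decide_eq_decide] at hxy
    rcases sp_center_coe m x.1 x.2 with hx | hx
    · rw [hx, hxy.mp hx]
    · rcases sp_center_coe m y.1 y.2 with hy | hy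
      · rw [hy, hxy.mpr hy]
      · rw [hx, hy]
  have := Nat.card_le_card_of_injective f hf
  simpa using this

theorem main (F : Type) [Field F] [Fintype F] (hF : Fintype.card F = 3)
    (P : Sylow 2 ↥(alternatingGroup (Fin 8))) (Q : Sylow 2 (Cfsg.PSp 2 F)) :
    Nonempty (↥(P : Subgroup ↥(alternatingGroup (Fin 8))) ≃* ↥(Q : Subgroup (Cfsg.PSp 2 F))) := by
  classical
  let e : ZMod 3 ≃+* F := ZMod.ringEquivOfPrime F Nat.prime_three hF
  let j : ZMod 3 →+* F := e
  let L : Fin 64 → symplecticGroup (Fin 2) (ZMod 3) :=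
    fun i => ⟨Mx i, SymplecticGroup.mem_iff.mpr (hmem i)⟩
  have hL0 : L 0 = 1 := Subtype.ext hone
  have hstep : ∀ i k, ph (m := 2) j (L i) * ph j (L (τ 0 k)) = ph j (L (τ i k)) := by
    intro i k
    rw [← map_mul]
    rcases hT i k with h | h
    · congr 1
      exact Subtype.ext h
    · exact ph_eq_of_neg j _ _ h
  obtain ⟨H1, H2, c1, c2, ⟨e12⟩⟩ := graph_iso (fun i => ph (m := 2) j (L i)) L2
    (fun k => ph j (L (τ 0 k))) b τ 0 w (by simp only [hL0, map_one])
    (Subtype.ext (by rw [L2_coe, h02']; rfl))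
    (fun k => by
      have := hstep (τ 0 k) k
      rw [hτ, hL0, map_one] at this
      exact this)
    (fun k => Subtype.ext (hb' k)) hstep
    (fun i k => Subtype.ext (by
      rw [Subgroup.coe_mul, L2_coe, L2_coe]; exact ht2' i k)) hw
    (fun x y h => hI x y (ph_inj j _ _ h))
    (fun x y h => inj2' x y (by rw [← L2_coe, ← L2_coe, h]))
  have : Finite (symplecticGroup (Fin 2) F) :=
    Finite.of_injective (fun z => (z : Matrix (Fin 2 ⊕ Fin 2) (Fin 2 ⊕ Fin 2) F))
      Subtype.val_injective
  have hcS : Nat.card (symplecticGroup (Fin 2) F) = 51840 := by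
    have := Cfsg.Agent.S0245.result hF 2
    simpa [Finset.prod_range_succ] using this
  have h2F : (2 : F) ≠ 0 := by
    intro h
    have h3 : e 2 = 0 := by rw [map_ofNat]; exact h
    have h4 : (2 : ZMod 3) = 0 := e.injective (by rw [h3, map_zero])
    exact absurd h4 (by decide)
  have hc2 : Nat.card (Subgroup.center (symplecticGroup (Fin 2) F)) = 2 :=
    le_antisymm (card_center_le 2) (sp_two_le_card_center 2 h2F (by norm_num))
  have hcP : Nat.card (Cfsg.PSp 2 F) = 25920 := by
    have := Subgroup.card_eq_card_quotient_mul_card_subgroup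
      (Subgroup.center (symplecticGroup (Fin 2) F))
    rw [hcS, hc2] at this
    show Nat.card (symplecticGroup (Fin 2) F ⧸ Subgroup.center (symplecticGroup (Fin 2) F)) = 25920
    omega
  have : Finite (Cfsg.PSp 2 F) := Nat.finite_of_card_ne_zero (by rw [hcP]; norm_num)
  obtain ⟨eQ⟩ := sylow_equiv 2 6 H1 (by rw [c1]; norm_num) (by rw [hcP]; norm_num) Q
  have hcA : Nat.card ↥(alternatingGroup (Fin 8)) = 20160 := by
    have := two_mul_nat_card_alternatingGroup (α := Fin 8)
    rw [Nat.card_eq_fintype_card (α := Equiv.Perm (Fin 8)), Fintype.card_perm, Fintype.card_fin] at this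
    have h8 : Nat.factorial 8 = 40320 := rfl
    omega
  obtain ⟨eP⟩ := sylow_equiv 2 6 H2 (by rw [c2]; norm_num) (by rw [hcA]; norm_num) P
  exact ⟨eP.trans (e12.symm.trans eQ.symm)⟩

end Cfsg.Agent.Lib.Helper33.Syl.A
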