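import Cfsg.Agent.Lib.Helper33.SetFam
import Cfsg.Agent.Lib.Helper33.Sextet
import Cfsg.Agent.Lib.Helper33.Tab

set_option autoImplicit false

namespace Cfsg.Agent.Lib.Helper33

open Cfsg
open scoped Pointwise

theorem univ_mem_supports' : (Finset.univ : Finset GolayPt) ∈ supports (golayCode : Set (GolayPt → ZMod 2)) := by
  rw [← unmask_all]
  exact (unmask_mem_supports_iff (by norm_num)).2 (by decide +kernel)

/-- the complement of the union of two disjoint octads is an octad -/
theorem compl_union_mem_octads {o o' : Finset GolayPt} (ho : o ∈ octads) (ho' : o' ∈ octads)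
    (hd : Disjoint o o') : (o ∪ o')ᶜ ∈ octads := by
  refine ⟨?_, ?_⟩
  · have h1 := supports_symmDiff (supports_symmDiff ho.1 ho'.1) univ_mem_supports'
    have h2 : symmDiff (symmDiff o o') Finset.univ = (o ∪ o')ᶜ := by
      ext p
      have : p ∈ o → p ∉ o' := fun h1 h2 => Finset.disjoint_left.1 hd h1 h2
      simp only [Finset.mem_symmDiff, Finset.mem_univ, Finset.mem_compl, Finset.mem_union]
      tauto
    rwa [h2] at h1
  · rw [Finset.card_compl, Finset.card_union_of_disjoint hd, ho.2, ho'.2]; rfl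

theorem trio_third {T : Finset (Finset GolayPt)} (hT : T ∈ trios) {a b x : Finset GolayPt}
    (ha : a ∈ T) (hb : b ∈ T) (hab : a ≠ b) (hx : x ∈ T) : x = a ∨ x = b ∨ x = (a ∪ b)ᶜ := by
  by_cases hxa : x = a
  · exact Or.inl hxa
  by_cases hxb : x = b
  · exact Or.inr (Or.inl hxb)
  right; right
  have h1 := hT.2.2 x hx a ha hxa
  have h2 := hT.2.2 x hx b hb hxb
  have h3 := hT.2.2 a ha b hb hab
  apply Finset.eq_of_subset_of_card_le
  · intro p hp
    rw [Finset.mem_compl, Finset.mem_union]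
    rintro (h | h)
    · exact Finset.disjoint_left.1 h1 hp h
    · exact Finset.disjoint_left.1 h2 hp h
  · rw [(compl_union_mem_octads (hT.2.1 a ha) (hT.2.1 b hb) h3).2, (hT.2.1 x hx).2]

theorem trio_subset {T T' : Finset (Finset GolayPt)} (hT : T ∈ trios) (hT' : T' ∈ trios) {a b : Finset GolayPt}
    (ha : a ∈ T) (hb : b ∈ T) (ha' : a ∈ T') (hb' : b ∈ T') (hab : a ≠ b) : T ⊆ T' := by
  -- T' contains a third element, which is the complement
  have hc' : (a ∪ b)ᶜ ∈ T' := by
    have h3 : ∃ x ∈ T', x ≠ a ∧ x ≠ b := by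
      by_contra hcon
      push Not at hcon
      have hsub : T' ⊆ {a, b} := by
        intro x hx
        by_cases hxa : x = a
        · simp [hxa]
        · simp [hcon x hx hxa]
      have := Finset.card_le_card hsub
      rw [hT'.1, Finset.card_pair hab] at this
      omega
    obtain ⟨x, hx, hxa, hxb⟩ := h3
    rcases trio_third hT' ha' hb' hab hx with h | h | h
    · exact absurd h hxa
    · exact absurd h hxb
    · rw [← h]; exact hx
  intro x hx
  rcases trio_third hT ha hb hab hx with h | h | h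
  · rw [h]; exact ha'
  · rw [h]; exact hb'
  · rw [h]; exact hc'

theorem trio_unique {T T' : Finset (Finset GolayPt)} (hT : T ∈ trios) (hT' : T' ∈ trios) {a b : Finset GolayPt}
    (ha : a ∈ T) (hb : b ∈ T) (ha' : a ∈ T') (hb' : b ∈ T') (hab : a ≠ b) : T = T' :=
  Finset.Subset.antisymm (trio_subset hT hT' ha hb ha' hb' hab) (trio_subset hT' hT ha' hb' ha hb hab)

theorem trio_cover {T : Finset (Finset GolayPt)} (hT : T ∈ trios) (p : GolayPt) : ∃ t ∈ T, p ∈ t := by
  have h1 : (T.biUnion id).card = 24 := by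
    rw [Finset.card_biUnion (t := id) (fun t ht u hu h => hT.2.2 t ht u hu h)]
    have h0 : ∀ u ∈ T, (id u : Finset GolayPt).card = 8 := fun t ht => (hT.2.1 t ht).2
    rw [Finset.sum_congr rfl h0, Finset.sum_const, hT.1]
    rfl
  have h2 : T.biUnion id = Finset.univ := by
    apply Finset.eq_univ_of_card
    rw [h1]; rfl
  have h3 : p ∈ T.biUnion id := by rw [h2]; exact Finset.mem_univ p
  obtain ⟨t, ht, hp⟩ := Finset.mem_biUnion.1 h3
  exact ⟨t, ht, hp⟩

theorem smul_mem_trios {g : Equiv.Perm GolayPt} (hg : g ∈ M24) {T : Finset (Finset GolayPt)}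
    (hT : T ∈ trios) : g • T ∈ trios := by
  refine ⟨by rw [Finset.card_smul_finset]; exact hT.1, ?_, ?_⟩
  · intro t ht
    obtain ⟨t', ht', rfl⟩ := Finset.mem_smul_finset.1 ht
    exact smul_mem_octads hg (hT.2.1 t' ht')
  · intro t ht u hu hne
    obtain ⟨t', ht', rfl⟩ := Finset.mem_smul_finset.1 ht
    obtain ⟨u', hu', rfl⟩ := Finset.mem_smul_finset.1 hu
    rw [Finset.disjoint_iff_inter_eq_empty, ← Finset.smul_finset_inter,
      Finset.disjoint_iff_inter_eq_empty.1 (hT.2.2 t' ht' u' hu' (fun h => hne (by rw [h]))),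
      Finset.smul_finset_empty]

/-- entry `i` of trio `k` -/
def trT (tab k i : ℕ) : ℕ := fld24 tab (Nat.add (Nat.mul 3 k) i)

/-- field `k` of a packed array with 16-bit fields -/
def fld16 (A k : ℕ) : ℕ := Nat.land (Nat.shiftRight A (Nat.mul 16 k)) 0xFFFF

/-- index of the trio containing the disjoint octads `a` (through the point of index 0) and `b` -/
def trF (op ra mult hash a b : ℕ) : ℕ :=
  fld12 hash (Nat.add (Nat.mul 64 (fld8 ra (fld12 op (Nat.land a 0xFFF))))
    (Nat.land (Nat.shiftRight (Nat.mul b (fld16 mult (fld8 ra (fld12 op (Nat.land a 0xFFF))))) 26) 63))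

noncomputable def trOK (op tab ra mult hash k : ℕ) : Bool :=
  Nat.beq (Nat.land (trT tab k 0) 1) 1 &&
  (Nat.beq (trF op ra mult hash (trT tab k 0) (trT tab k 1)) k &&
  (Nat.beq (trF op ra mult hash (trT tab k 0) (trT tab k 2)) k &&
  (allBelow (fun i => isCode (trT tab k i) && Nat.beq (popc (trT tab k i)) 8) 3 &&
  (Nat.beq (Nat.land (trT tab k 0) (trT tab k 1)) 0 &&
  (Nat.beq (Nat.land (trT tab k 0) (trT tab k 2)) 0 &&
   Nat.beq (Nat.land (trT tab k 1) (trT tab k 2)) 0)))))

noncomputable def trCoverOK (ot op tab ra mult hash n : ℕ) : Bool :=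
  allBelow (fun ka => Nat.beq (Nat.land (fld24 ot ka) 1) 0 ||
    allBelow (fun kb => !(Nat.beq (Nat.land (fld24 ot ka) (fld24 ot kb)) 0) ||
      (Nat.blt (trF op ra mult hash (fld24 ot ka) (fld24 ot kb)) n &&
       (Nat.beq (trT tab (trF op ra mult hash (fld24 ot ka) (fld24 ot kb)) 0) (fld24 ot ka) &&
        (Nat.beq (trT tab (trF op ra mult hash (fld24 ot ka) (fld24 ot kb)) 1) (fld24 ot kb) ||
         Nat.beq (trT tab (trF op ra mult hash (fld24 ot ka) (fld24 ot kb)) 2) (fld24 ot kb))))) 759) 759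

structure TrTable (ot op tab ra mult hash n : ℕ) : Prop where
  fam : codeFamOK ot op 8 759 = true
  ok : allBelow (trOK op tab ra mult hash) n = true
  cov : trCoverOK ot op tab ra mult hash n = true

namespace TrTable

variable {ot op tab ra mult hash n : ℕ}

theorem spec (h : TrTable ot op tab ra mult hash n) {k : ℕ} (hk : k < n) :
    Nat.land (trT tab k 0) 1 = 1 ∧ trF op ra mult hash (trT tab k 0) (trT tab k 1) = k ∧
    trF op ra mult hash (trT tab k 0) (trT tab k 2) = k ∧
    (∀ i < 3, isCode (trT tab k i) = true ∧ popc (trT tab k i) = 8) ∧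
    Nat.land (trT tab k 0) (trT tab k 1) = 0 ∧ Nat.land (trT tab k 0) (trT tab k 2) = 0 ∧
    Nat.land (trT tab k 1) (trT tab k 2) = 0 := by
  have := (allBelow_iff _ _).1 h.ok k hk
  simp only [trOK, Bool.and_eq_true] at this
  obtain ⟨h1, h2, h3, h4, h5, h6, h7⟩ := this
  refine ⟨Nat.eq_of_beq_eq_true h1, Nat.eq_of_beq_eq_true h2, Nat.eq_of_beq_eq_true h3, ?_,
    Nat.eq_of_beq_eq_true h5, Nat.eq_of_beq_eq_true h6, Nat.eq_of_beq_eq_true h7⟩
  intro i hi
  have := (allBelow_iff _ _).1 h4 i hi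
  rw [Bool.and_eq_true] at this
  exact ⟨this.1, Nat.eq_of_beq_eq_true this.2⟩

theorem land_zero (h : TrTable ot op tab ra mult hash n) {k : ℕ} (hk : k < n) {i j : ℕ} (hi : i < 3) (hj : j < 3)
    (hij : i ≠ j) : Nat.land (trT tab k i) (trT tab k j) = 0 := by
  obtain ⟨_, _, _, _, h01, h02, h12⟩ := h.spec hk
  have c : ∀ a b : ℕ, Nat.land a b = Nat.land b a := Nat.land_comm
  interval_cases i <;> interval_cases j <;> first | exact absurd rfl hij | assumption | (rw [c]; assumption)

theorem distinct (h : TrTable ot op tab ra mult hash n) {k : ℕ} (hk : k < n) :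
    ∀ i < 3, ∀ j < 3, fld24 tab (Nat.add (Nat.mul 3 k) i) = fld24 tab (Nat.add (Nat.mul 3 k) j) → i = j := by
  intro i hi j hj hij
  by_contra hne
  have h0 := h.land_zero hk hi hj hne
  have e : trT tab k i = trT tab k j := hij
  rw [← e] at h0
  have h1 : Nat.land (trT tab k i) (trT tab k i) = trT tab k i := Nat.and_self _
  rw [h1] at h0
  have h8 := ((h.spec hk).2.2.2.1 i hi).2
  rw [h0] at h8
  revert h8
  decide +kernel

theorem oct (h : TrTable ot op tab ra mult hash n) {k : ℕ} (hk : k < n) {i : ℕ} (hi : i < 3) :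
    unmask (trT tab k i) ∈ octads :=
  (unmask_mem_octads_iff (fld24_lt _ _)).2 ((h.spec hk).2.2.2.1 i hi)

theorem mem (h : TrTable ot op tab ra mult hash n) {k : ℕ} (hk : k < n) : objM tab 3 k ∈ trios := by
  refine ⟨card_objM (h.distinct hk), ?_, ?_⟩
  · intro t ht
    obtain ⟨i, hi, rfl⟩ := mem_objM.1 ht
    exact h.oct hk hi
  · intro t ht u hu hne
    obtain ⟨i, hi, rfl⟩ := mem_objM.1 ht
    obtain ⟨j, hj, rfl⟩ := mem_objM.1 hu
    have hij : i ≠ j := fun e => hne (by rw [e])
    rw [Finset.disjoint_iff_inter_eq_empty, ← unmask_and]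
    have : fld24 tab (Nat.add (Nat.mul 3 k) i) &&& fld24 tab (Nat.add (Nat.mul 3 k) j) = 0 :=
      h.land_zero hk hi hj hij
    rw [this, unmask_zero]

theorem entry_mem (tab k : ℕ) {i : ℕ} (hi : i < 3) : unmask (trT tab k i) ∈ objM tab 3 k :=
  mem_objM.2 ⟨i, hi, rfl⟩

theorem pt0_mem (h : TrTable ot op tab ra mult hash n) {k : ℕ} (hk : k < n) : pt 0 ∈ unmask (trT tab k 0) := by
  rw [mem_unmask, idx_pt (by norm_num)]
  have h2 : (trT tab k 0) &&& 1 = 1 := (h.spec hk).1
  rw [Nat.and_one_is_mod] at h2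
  rw [Nat.testBit_zero]
  simp [h2]

theorem cover (h : TrTable ot op tab ra mult hash n) : ∀ T ∈ trios, ∃ k < n, T = objM tab 3 k := by
  intro T hT
  obtain ⟨a, ha, h0⟩ := trio_cover hT (pt 0)
  have hb : ∃ b ∈ T, b ≠ a := by
    by_contra hcon
    push Not at hcon
    have hsub : T ⊆ {a} := fun x hx => by simp [hcon x hx]
    have := Finset.card_le_card hsub
    rw [hT.1, Finset.card_singleton] at this
    omega
  obtain ⟨b, hb, hba⟩ := hb
  obtain ⟨ka, hka, rfl⟩ := (codeFam_spec h.fam).1 a (hT.2.1 a ha)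
  obtain ⟨kb, hkb, rfl⟩ := (codeFam_spec h.fam).1 b (hT.2.1 b hb)
  have hcov := (allBelow_iff _ _).1 h.cov ka hka
  rw [Bool.or_eq_true] at hcov
  have hbit : Nat.land (fld24 ot ka) 1 = 1 := by
    rw [mem_unmask, idx_pt (by norm_num), Nat.testBit_zero] at h0
    show fld24 ot ka &&& 1 = 1
    rw [Nat.and_one_is_mod]
    simpa using h0
  rcases hcov with h1 | h1
  · rw [hbit] at h1; exact absurd h1 (by decide)
  have h2 := (allBelow_iff _ _).1 h1 kb hkb
  have hdis : Nat.land (fld24 ot ka) (fld24 ot kb) = 0 := by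
    have hd := hT.2.2 _ ha _ hb (Ne.symm hba)
    rw [Finset.disjoint_iff_inter_eq_empty, ← unmask_and, ← unmask_zero] at hd
    exact unmask_inj (lt_of_le_of_lt Nat.and_le_left (fld24_lt _ _)) (by norm_num) hd
  rw [Bool.or_eq_true] at h2
  rcases h2 with h2 | h2
  · rw [hdis] at h2; exact absurd h2 (by decide)
  simp only [Bool.and_eq_true, Bool.or_eq_true] at h2
  obtain ⟨h3, h4, h5⟩ := h2
  generalize trF op ra mult hash (fld24 ot ka) (fld24 ot kb) = K at h3 h4 h5
  refine ⟨K, blt_iff.1 h3, ?_⟩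
  refine trio_unique hT (h.mem (blt_iff.1 h3)) ha hb ?_ ?_ (Ne.symm hba)
  · rw [← Nat.eq_of_beq_eq_true h4]; exact entry_mem _ _ (by norm_num)
  · rcases h5 with h5 | h5
    · rw [← Nat.eq_of_beq_eq_true h5]; exact entry_mem _ _ (by norm_num)
    · rw [← Nat.eq_of_beq_eq_true h5]; exact entry_mem _ _ (by norm_num)

theorem inj (h : TrTable ot op tab ra mult hash n) :
    ∀ k < n, ∀ k' < n, objM tab 3 k = objM tab 3 k' → k = k' := by
  intro k hk k' hk' he
  have h1 : unmask (trT tab k 0) ∈ objM tab 3 k' := he ▸ entry_mem tab k (by norm_num)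
  have h2 : unmask (trT tab k 0) = unmask (trT tab k' 0) := by
    by_contra hne
    have hd := (h.mem hk').2.2 _ h1 _ (entry_mem tab k' (by norm_num)) hne
    exact Finset.disjoint_left.1 hd (h.pt0_mem hk) (h.pt0_mem hk')
  have h3 : trT tab k 0 = trT tab k' 0 := unmask_inj (fld24_lt _ _) (fld24_lt _ _) h2
  have h4 : unmask (trT tab k 1) ∈ objM tab 3 k' := he ▸ entry_mem tab k (by norm_num)
  obtain ⟨i, hi, h5⟩ := mem_objM.1 h4
  have h6 : trT tab k 1 = trT tab k' i := unmask_inj (fld24_lt _ _) (fld24_lt _ _) h5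
  have hi0 : i ≠ 0 := by
    rintro rfl
    have := h.distinct hk 1 (by norm_num) 0 (by norm_num) (by
      show trT tab k 1 = trT tab k 0
      rw [h6, h3])
    omega
  have hk1 := (h.spec hk).2.1
  rw [h3, h6] at hk1
  have : i = 1 ∨ i = 2 := by omega
  rcases this with rfl | rfl
  · rw [← hk1, (h.spec hk').2.1]
  · rw [← hk1, (h.spec hk').2.2.1]

theorem smul_eq (h : TrTable ot op tab ra mult hash n) {P k j i i' : ℕ} (hP : inM24 P = true) (hk : k < n)
    (hj : j < n) (hi : i < 3) (hi' : i' < 3)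
    (he : permMask P (trT tab k 0) = trT tab j i) (he' : permMask P (trT tab k 1) = trT tab j i') :
    permOf P • objM tab 3 k = objM tab 3 j := by
  refine trio_unique (smul_mem_trios (permOf_mem_M24 hP) (h.mem hk)) (h.mem hj)
    (a := unmask (trT tab j i)) (b := unmask (trT tab j i')) ?_ ?_ (entry_mem _ _ hi) (entry_mem _ _ hi') ?_
  · rw [← he, ← smul_unmask (isPerm_of_inM24 hP)]
    exact Finset.smul_mem_smul_finset (entry_mem tab k (by norm_num))
  · rw [← he', ← smul_unmask (isPerm_of_inM24 hP)]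
    exact Finset.smul_mem_smul_finset (entry_mem tab k (by norm_num))
  · rw [← he, ← he', ← smul_unmask (isPerm_of_inM24 hP), ← smul_unmask (isPerm_of_inM24 hP)]
    intro hc
    have h1 := MulAction.injective (permOf P) hc
    have h2 := h.distinct hk 0 (by norm_num) 1 (by norm_num) (unmask_inj (fld24_lt _ _) (fld24_lt _ _) h1)
    omega

end TrTable

/-- edge test for trios: `aux = 4 * i + i'` where the first two octads of trio `k` go to entries `i`, `i'` -/
noncomputable def trEdge (tab P k j aux : ℕ) : Bool :=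
  Nat.blt (Nat.shiftRight aux 2) 3 && (Nat.blt (Nat.land aux 3) 3 &&
    (Nat.beq (permMask P (trT tab k 0)) (trT tab j (Nat.shiftRight aux 2)) &&
     Nat.beq (permMask P (trT tab k 1)) (trT tab j (Nat.land aux 3))))

theorem TrTable.tabFam {ot op tab ra mult hash n : ℕ} (h : TrTable ot op tab ra mult hash n) :
    TabFam trios (objM tab 3) n (trEdge tab) := by
  refine ⟨h.cover, fun k hk => h.mem hk, h.inj, fun g hg y hy => smul_mem_trios hg hy, ?_⟩
  intro P k j aux hP hk hj he
  simp only [trEdge, Bool.and_eq_true] at he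
  exact h.smul_eq hP hk hj (blt_iff.1 he.1) (blt_iff.1 he.2.1) (Nat.eq_of_beq_eq_true he.2.2.1)
    (Nat.eq_of_beq_eq_true he.2.2.2)

/-- edge test for sextets: the first tetrad of sextet `k` goes to entry `aux` of sextet `j` -/
noncomputable def sxEdge (tab P k j aux : ℕ) : Bool :=
  Nat.blt aux 6 && Nat.beq (permMask P (sxT tab k 0)) (sxT tab j aux)

theorem SxTable.tabFam {tab pos n : ℕ} (h : SxTable tab pos n) :
    TabFam sextets (objM tab 6) n (sxEdge tab) := by
  refine ⟨h.cover, fun k hk => h.mem hk, h.inj, fun g hg y hy => smul_mem_sextets hg hy, ?_⟩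
  intro P k j aux hP hk hj he
  simp only [sxEdge, Bool.and_eq_true] at he
  exact h.smul_eq hP hk hj (blt_iff.1 he.1) (Nat.eq_of_beq_eq_true he.2)

/-- `relSq` between entries of two tables -/
theorem relSq_objM' {tab tab' m m' k k' : ℕ}
    (h : ∀ i < m, ∀ j < m, fld24 tab (Nat.add (Nat.mul m k) i) = fld24 tab (Nat.add (Nat.mul m k) j) → i = j)
    (h' : ∀ i < m', ∀ j < m', fld24 tab' (Nat.add (Nat.mul m' k') i) = fld24 tab' (Nat.add (Nat.mul m' k') j) →
      i = j) :
    relSq (objM tab m k) (objM tab' m' k') =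
      sumBelow (fun i => sumBelow (fun j => Nat.pow (popc (Nat.land (fld24 tab (Nat.add (Nat.mul m k) i))
        (fld24 tab' (Nat.add (Nat.mul m' k') j)))) 2) m') m := by
  unfold relSq objM
  rw [Finset.sum_image, sumBelow_eq]
  · apply Finset.sum_congr rfl
    intro i _
    rw [Finset.sum_image, sumBelow_eq]
    · apply Finset.sum_congr rfl
      intro j _
      rw [card_inter_unmask _ _ (fld24_lt _ _)]
      rfl
    · intro a ha b hb hab
      exact h' a (Finset.mem_range.1 ha) b (Finset.mem_range.1 hb) (unmask_inj (fld24_lt _ _) (fld24_lt _ _) hab)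
  · intro a ha b hb hab
    exact h a (Finset.mem_range.1 ha) b (Finset.mem_range.1 hb) (unmask_inj (fld24_lt _ _) (fld24_lt _ _) hab)

/-- sum of the squares of the intersection sizes of a set with the members of a family -/
def relS1 (o : Finset GolayPt) (S : Finset (Finset GolayPt)) : ℕ := ∑ t ∈ S, ((o ∩ t).card) ^ 2

theorem relS1_smul (g : Equiv.Perm GolayPt) (o : Finset GolayPt) (S : Finset (Finset GolayPt)) :
    relS1 (g • o) (g • S) = relS1 o S := by
  unfold relS1
  have h1 : g • S = S.image (fun t => g • t) := rfl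
  rw [h1, Finset.sum_image (fun a _ b _ h => MulAction.injective g h)]
  apply Finset.sum_congr rfl
  intro t _
  rw [card_inter_smul]

theorem relS1_objM {a tab m k : ℕ} (ha : a < 2 ^ 24)
    (h : ∀ i < m, ∀ j < m, fld24 tab (Nat.add (Nat.mul m k) i) = fld24 tab (Nat.add (Nat.mul m k) j) → i = j) :
    relS1 (unmask a) (objM tab m k) =
      sumBelow (fun i => Nat.pow (popc (Nat.land a (fld24 tab (Nat.add (Nat.mul m k) i)))) 2) m := by
  unfold relS1 objM
  rw [Finset.sum_image, sumBelow_eq]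
  · apply Finset.sum_congr rfl
    intro i _
    rw [card_inter_unmask _ _ ha]
    rfl
  · intro a ha b hb hab
    exact h a (Finset.mem_range.1 ha) b (Finset.mem_range.1 hb) (unmask_inj (fld24_lt _ _) (fld24_lt _ _) hab)

end Cfsg.Agent.Lib.Helper33
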